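import Mathlib
import Cfsg.Agent.Lib.Char.PermChar
import Cfsg.Agent.Lib.Char.Ops

/-!
# Small irreducible characters of multiply transitive groups.

For a `4`-transitive action on `X`, with `f` the number of fixed points and `d` the number of
fixed `2`-subsets, the functions `f - 1`, `d - f` and `(f - 1) ^ 2 - d` are irreducible characters.
-/

set_option autoImplicit false
set_option linter.unusedSectionVars false
set_option linter.style.haveILetI false

open scoped ComplexConjugate Pointwise
open MulAction

namespace Cfsg.Agent.Lib.AltChar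

open Cfsg (classInner IsCharacter IsIrrCharacter)
open Cfsg.Agent.Lib.Char

universe u v w

section Orbits

variable {G : Type u} [Group G]

/-- Counting orbits by a complete invariant. -/
theorem card_orbits_of_classify {W : Type v} {T : Type w} [MulAction G W] (φ : W → T)
    (hsurj : Function.Surjective φ) (hinv : ∀ (g : G) (w : W), φ (g • w) = φ w)
    (hfib : ∀ w w' : W, φ w = φ w' → ∃ g : G, g • w = w') :
    Nat.card (orbitRel.Quotient G W) = Nat.card T := by
  let F : orbitRel.Quotient G W → T := Quotient.lift φ (by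
    rintro a b ⟨g, rfl⟩
    exact hinv g b)
  refine Nat.card_congr (Equiv.ofBijective F ⟨?_, ?_⟩)
  · intro a b
    induction a using Quotient.inductionOn with
    | _ a =>
    induction b using Quotient.inductionOn with
    | _ b =>
    intro hab
    obtain ⟨g, hg⟩ := hfib a b hab
    exact Quotient.sound ⟨g⁻¹, by
      show g⁻¹ • b = a
      rw [← hg, inv_smul_smul]⟩
  · intro t
    obtain ⟨w, rfl⟩ := hsurj t
    exact ⟨Quotient.mk _ w, rfl⟩

/-- Fixed points on a product. -/
theorem card_fixedBy_prod (A : Type v) (B : Type w) [MulAction G A] [MulAction G B] (g : G) :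
    Nat.card (fixedBy (A × B) g) = Nat.card (fixedBy A g) * Nat.card (fixedBy B g) := by
  rw [← Nat.card_prod]
  refine Nat.card_congr
    { toFun := fun p => (⟨p.1.1, ?_⟩, ⟨p.1.2, ?_⟩)
      invFun := fun p => ⟨(p.1.1, p.2.1), ?_⟩
      left_inv := fun p => rfl
      right_inv := fun p => rfl }
  · exact congrArg Prod.fst p.2
  · exact congrArg Prod.snd p.2
  · exact Prod.ext p.1.2 p.2.2

/-- Fixed embeddings. -/
theorem card_fixedBy_embedding_fin {X : Type v} [MulAction G X] [Finite X] (k : ℕ) (g : G) :
    Nat.card (fixedBy (Fin k ↪ X) g) = (Nat.card (fixedBy X g)).descFactorial k := by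
  classical
  haveI : Fintype X := Fintype.ofFinite X
  let e : fixedBy (Fin k ↪ X) g ≃ (Fin k ↪ fixedBy X g) :=
    { toFun := fun f => ⟨fun i => ⟨f.1 i, by
          have h := f.2
          rw [mem_fixedBy] at h
          rw [mem_fixedBy]
          have h2 := congrArg (fun F : Fin k ↪ X => F i) h
          simpa using h2⟩, fun i j hij => f.1.injective (congrArg Subtype.val hij)⟩
      invFun := fun F => ⟨⟨fun i => (F i).1, fun i j hij => F.injective (Subtype.ext hij)⟩, by
          rw [mem_fixedBy]
          ext i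
          exact mem_fixedBy.mp (F i).2⟩
      left_inv := fun f => by
        ext i
        rfl
      right_inv := fun F => by
        ext i
        rfl }
  rw [Nat.card_congr e]
  haveI : Fintype (fixedBy X g) := Fintype.ofFinite _
  rw [Nat.card_eq_fintype_card, Fintype.card_embedding_eq, Nat.card_eq_fintype_card]
  simp only [Fintype.card_fin]

end Orbits

section Main

variable {G : Type u} [Group G] {X : Type v} [DecidableEq X] [MulAction G X]

/-- A `4`-transitive group moves any `4`-tuple to any `4`-tuple of the same equality pattern. -/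
theorem exists_smul_of_pattern [Finite X] [IsMultiplyPretransitive G X 4]
    (h4 : 4 ≤ Nat.card X) (v w : Fin 4 → X)
    (h : ∀ i j, v i = v j ↔ w i = w j) : ∃ g : G, ∀ i, g • v i = w i := by
  classical
  let R : Finset X := Finset.univ.image v
  have hm : R.card ≤ 4 := by
    simpa using Finset.card_image_le (s := (Finset.univ : Finset (Fin 4))) (f := v)
  haveI : IsMultiplyPretransitive G X R.card := isMultiplyPretransitive_of_le hm h4
  let e := R.equivFin
  have hv : ∀ i, v i ∈ R := fun i => Finset.mem_image_of_mem _ (Finset.mem_univ _)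
  have hsec : ∀ x : R, ∃ i, v i = x.1 := fun x => by
    obtain ⟨i, -, hi⟩ := Finset.mem_image.mp x.2
    exact ⟨i, hi⟩
  choose s hs using hsec
  let u : Fin R.card ↪ X :=
    ⟨fun i => (e.symm i).1, fun i j hij => e.symm.injective (Subtype.ext hij)⟩
  let u' : Fin R.card ↪ X :=
    ⟨fun i => w (s (e.symm i)), fun i j hij => by
      have h1 := (h _ _).mpr hij
      rw [hs, hs] at h1
      exact e.symm.injective (Subtype.ext h1)⟩
  obtain ⟨g, hg⟩ := exists_smul_eq G u u'
  refine ⟨g, fun i => ?_⟩
  have h2 : g • u (e ⟨v i, hv i⟩) = u' (e ⟨v i, hv i⟩) :=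
    congrArg (fun F : Fin R.card ↪ X => F (e ⟨v i, hv i⟩)) hg
  have h3 : u (e ⟨v i, hv i⟩) = v i := by
    change ((e.symm (e ⟨v i, hv i⟩)).1) = v i
    rw [Equiv.symm_apply_apply]
  have h5 : u' (e ⟨v i, hv i⟩) = w (s ⟨v i, hv i⟩) := by
    change w (s (e.symm (e ⟨v i, hv i⟩))) = _
    rw [Equiv.symm_apply_apply]
  rw [h3, h5] at h2
  rw [h2]
  exact (h _ _).mp (hs _)

variable (X) in
/-- The `2`-subsets. -/
abbrev Pairs : Type v := Set.powersetCard X 2

theorem exists_pair (A : Pairs X) : ∃ a b, a ≠ b ∧ A.1 = {a, b} :=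
  Finset.card_eq_two.mp A.2

theorem exists_pair_of_mem (A : Pairs X) {a : X} (ha : a ∈ A.1) : ∃ b, a ≠ b ∧ A.1 = {a, b} := by
  obtain ⟨x, y, hxy, hA⟩ := exists_pair A
  rw [hA, Finset.mem_insert, Finset.mem_singleton] at ha
  rcases ha with rfl | rfl
  · exact ⟨y, hxy, hA⟩
  · exact ⟨x, hxy.symm, by rw [hA, Finset.pair_comm]⟩

/-- A `2`-subset with prescribed elements. -/
def mkPair {a b : X} (h : a ≠ b) : Pairs X := ⟨{a, b}, Finset.card_pair h⟩

theorem smul_pairs_eq {A A' : Pairs X} {a b a' b' : X} {g : G} (hA : A.1 = {a, b})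
    (hA' : A'.1 = {a', b'}) (h1 : g • a = a') (h2 : g • b = b') : g • A = A' := by
  apply Subtype.ext
  change g • A.1 = A'.1
  rw [hA, hA', Finset.smul_finset_insert, Finset.smul_finset_singleton, h1, h2]

theorem mem_smul_pairs (A : Pairs X) (g : G) (x : X) : g • x ∈ (g • A).1 ↔ x ∈ A.1 := by
  change g • x ∈ g • A.1 ↔ _
  exact Finset.smul_mem_smul_finset_iff g

/-- A `2`-embedding with prescribed values. -/
def mkEmb {a b : X} (h : a ≠ b) : Fin 2 ↪ X :=
  ⟨![a, b], by
    intro i j hij
    fin_cases i <;> fin_cases j <;> simp_all⟩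

@[simp] theorem mkEmb_zero {a b : X} (h : a ≠ b) : mkEmb h 0 = a := rfl

@[simp] theorem mkEmb_one {a b : X} (h : a ≠ b) : mkEmb h 1 = b := rfl

theorem emb_eq_of {z z' : Fin 2 ↪ X} {g : G} (h0 : g • z 0 = z' 0) (h1 : g • z 1 = z' 1) :
    g • z = z' := by
  ext i
  fin_cases i
  · exact h0
  · exact h1

section Classify

variable [Finite X] [IsMultiplyPretransitive G X 4]

/-- Orbits on (pair, point). -/
theorem card_orbits_pairs_point (h4 : 4 ≤ Nat.card X) :
    Nat.card (orbitRel.Quotient G (Pairs X × X)) = 2 := by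
  classical
  haveI : Fintype X := Fintype.ofFinite X
  have hemb : Nonempty (Fin 4 ↪ X) := by
    rw [Function.Embedding.nonempty_iff_card_le]
    simpa [Nat.card_eq_fintype_card] using h4
  obtain ⟨u⟩ := hemb
  have hu : ∀ i j, i ≠ j → u i ≠ u j := fun i j hij h => hij (u.injective h)
  have key := card_orbits_of_classify (G := G) (W := Pairs X × X) (T := Bool)
    (fun p => decide (p.2 ∈ p.1.1)) ?_ ?_ ?_
  · simpa using key
  · intro b
    cases b
    · refine ⟨(mkPair (hu 0 1 (by decide)), u 2), ?_⟩
      simp [mkPair, hu 2 0 (by decide), hu 2 1 (by decide)]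
    · refine ⟨(mkPair (hu 0 1 (by decide)), u 0), ?_⟩
      simp [mkPair]
  · rintro g ⟨A, x⟩
    simp only [Prod.smul_mk, mem_smul_pairs]
  · rintro ⟨A, x⟩ ⟨A', x'⟩ h
    simp only [decide_eq_decide] at h
    by_cases hx : x ∈ A.1
    · obtain ⟨b, hb, hA⟩ := exists_pair_of_mem A hx
      obtain ⟨b', hb', hA'⟩ := exists_pair_of_mem A' (h.mp hx)
      obtain ⟨g, hg⟩ := exists_smul_of_pattern (G := G) h4 ![x, b, x, x] ![x', b', x', x'] (by
        intro i j
        fin_cases i <;> fin_cases j <;> simp [hb, hb', hb.symm, hb'.symm])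
      exact ⟨g, Prod.ext (smul_pairs_eq hA hA' (hg 0) (hg 1)) (hg 0)⟩
    · have hx' : x' ∉ A'.1 := fun hc => hx (h.mpr hc)
      obtain ⟨a, b, hab, hA⟩ := exists_pair A
      obtain ⟨a', b', hab', hA'⟩ := exists_pair A'
      rw [hA] at hx
      rw [hA'] at hx'
      simp only [Finset.mem_insert, Finset.mem_singleton, not_or] at hx hx'
      obtain ⟨h1, h2⟩ := hx
      obtain ⟨h1', h2'⟩ := hx'
      obtain ⟨g, hg⟩ := exists_smul_of_pattern (G := G) h4 ![a, b, x, x] ![a', b', x', x'] (by
        intro i j
        fin_cases i <;> fin_cases j <;>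
          simp [hab, hab', hab.symm, hab'.symm, h1, h2, h1', h2', Ne.symm h1, Ne.symm h2,
            Ne.symm h1', Ne.symm h2'])
      exact ⟨g, Prod.ext (smul_pairs_eq hA hA' (hg 0) (hg 1)) (hg 2)⟩

/-- Orbits on (pair, ordered pair). -/
theorem card_orbits_pairs_emb (h4 : 4 ≤ Nat.card X) :
    Nat.card (orbitRel.Quotient G (Pairs X × (Fin 2 ↪ X))) = 4 := by
  classical
  haveI : Fintype X := Fintype.ofFinite X
  have hemb : Nonempty (Fin 4 ↪ X) := by
    rw [Function.Embedding.nonempty_iff_card_le]
    simpa [Nat.card_eq_fintype_card] using h4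
  obtain ⟨u⟩ := hemb
  have hu : ∀ i j, i ≠ j → u i ≠ u j := fun i j hij h => hij (u.injective h)
  have key := card_orbits_of_classify (G := G) (W := Pairs X × (Fin 2 ↪ X)) (T := Bool × Bool)
    (fun p => (decide (p.2 0 ∈ p.1.1), decide (p.2 1 ∈ p.1.1))) ?_ ?_ ?_
  · simpa using key
  · rintro ⟨b, c⟩
    cases b <;> cases c
    · refine ⟨(mkPair (hu 0 1 (by decide)), mkEmb (hu 2 3 (by decide))), ?_⟩
      simp [mkPair, hu 2 0 (by decide), hu 2 1 (by decide), hu 3 0 (by decide),
        hu 3 1 (by decide)]
    · refine ⟨(mkPair (hu 0 1 (by decide)), mkEmb (hu 2 0 (by decide))), ?_⟩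
      simp [mkPair, hu 2 0 (by decide), hu 2 1 (by decide)]
    · refine ⟨(mkPair (hu 0 1 (by decide)), mkEmb (hu 0 2 (by decide))), ?_⟩
      simp [mkPair, hu 2 0 (by decide), hu 2 1 (by decide)]
    · refine ⟨(mkPair (hu 0 1 (by decide)), mkEmb (hu 0 1 (by decide))), ?_⟩
      simp [mkPair]
  · rintro g ⟨A, z⟩
    simp only [Prod.smul_mk, Function.Embedding.smul_apply, mem_smul_pairs]
  · rintro ⟨A, z⟩ ⟨A', z'⟩ h
    simp only [Prod.mk.injEq, decide_eq_decide] at h
    obtain ⟨h0, h1⟩ := h
    have hz : z 0 ≠ z 1 := fun hc => absurd (z.injective hc) (by decide)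
    have hz' : z' 0 ≠ z' 1 := fun hc => absurd (z'.injective hc) (by decide)
    by_cases hx : z 0 ∈ A.1
    · obtain ⟨c, hc, hA⟩ := exists_pair_of_mem A hx
      obtain ⟨c', hc', hA'⟩ := exists_pair_of_mem A' (h0.mp hx)
      by_cases hy : z 1 ∈ A.1
      · have hy' := h1.mp hy
        rw [hA] at hy
        rw [hA'] at hy'
        simp only [Finset.mem_insert, Finset.mem_singleton, hz.symm, false_or, hz'.symm] at hy hy'
        subst hy hy'
        obtain ⟨g, hg⟩ := exists_smul_of_pattern (G := G) h4
          ![z 0, z 1, z 0, z 1] ![z' 0, z' 1, z' 0, z' 1] (by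
          intro i j
          fin_cases i <;> fin_cases j <;> simp [hz, hz', hz.symm, hz'.symm])
        exact ⟨g, Prod.ext (smul_pairs_eq hA hA' (hg 0) (hg 1)) (emb_eq_of (hg 0) (hg 1))⟩
      · have hy' : z' 1 ∉ A'.1 := fun hh => hy (h1.mpr hh)
        rw [hA] at hy
        rw [hA'] at hy'
        simp only [Finset.mem_insert, Finset.mem_singleton, not_or] at hy hy'
        obtain ⟨-, h2⟩ := hy
        obtain ⟨-, h2'⟩ := hy'
        obtain ⟨g, hg⟩ := exists_smul_of_pattern (G := G) h4
          ![z 0, c, z 1, z 1] ![z' 0, c', z' 1, z' 1] (by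
          intro i j
          fin_cases i <;> fin_cases j <;>
            simp [hz, hz', hz.symm, hz'.symm, hc, hc', hc.symm, hc'.symm, h2, h2', Ne.symm h2,
              Ne.symm h2'])
        exact ⟨g, Prod.ext (smul_pairs_eq hA hA' (hg 0) (hg 1)) (emb_eq_of (hg 0) (hg 2))⟩
    · have hx' : z' 0 ∉ A'.1 := fun hh => hx (h0.mpr hh)
      by_cases hy : z 1 ∈ A.1
      · obtain ⟨c, hc, hA⟩ := exists_pair_of_mem A hy
        obtain ⟨c', hc', hA'⟩ := exists_pair_of_mem A' (h1.mp hy)
        rw [hA] at hx
        rw [hA'] at hx'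
        simp only [Finset.mem_insert, Finset.mem_singleton, not_or] at hx hx'
        obtain ⟨-, h2⟩ := hx
        obtain ⟨-, h2'⟩ := hx'
        obtain ⟨g, hg⟩ := exists_smul_of_pattern (G := G) h4
          ![z 1, c, z 0, z 0] ![z' 1, c', z' 0, z' 0] (by
          intro i j
          fin_cases i <;> fin_cases j <;>
            simp [hz, hz', hz.symm, hz'.symm, hc, hc', hc.symm, hc'.symm, h2, h2', Ne.symm h2,
              Ne.symm h2'])
        exact ⟨g, Prod.ext (smul_pairs_eq hA hA' (hg 0) (hg 1)) (emb_eq_of (hg 2) (hg 0))⟩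
      · have hy' : z' 1 ∉ A'.1 := fun hh => hy (h1.mpr hh)
        obtain ⟨a, b, hab, hA⟩ := exists_pair A
        obtain ⟨a', b', hab', hA'⟩ := exists_pair A'
        rw [hA] at hx hy
        rw [hA'] at hx' hy'
        simp only [Finset.mem_insert, Finset.mem_singleton, not_or] at hx hy hx' hy'
        obtain ⟨h1, h2⟩ := hx
        obtain ⟨h3, h5⟩ := hy
        obtain ⟨h1', h2'⟩ := hx'
        obtain ⟨h3', h5'⟩ := hy'
        obtain ⟨g, hg⟩ := exists_smul_of_pattern (G := G) h4
          ![a, b, z 0, z 1] ![a', b', z' 0, z' 1] (by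
          intro i j
          fin_cases i <;> fin_cases j <;>
            simp [hz, hz', hz.symm, hz'.symm, hab, hab', hab.symm, hab'.symm, h1, h2, h3, h5,
              h1', h2', h3', h5', Ne.symm h1, Ne.symm h2, Ne.symm h3, Ne.symm h5, Ne.symm h1',
              Ne.symm h2', Ne.symm h3', Ne.symm h5'])
        exact ⟨g, Prod.ext (smul_pairs_eq hA hA' (hg 0) (hg 1)) (emb_eq_of (hg 2) (hg 3))⟩

/-- The type of a pair of `2`-subsets. -/
def pairType (p : Pairs X × Pairs X) : Fin 3 :=
  if p.1.1 = p.2.1 then 2 else if Disjoint p.1.1 p.2.1 then 0 else 1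

/-- Orbits on (pair, pair). -/
theorem card_orbits_pairs_pairs (h4 : 4 ≤ Nat.card X) :
    Nat.card (orbitRel.Quotient G (Pairs X × Pairs X)) = 3 := by
  classical
  haveI : Fintype X := Fintype.ofFinite X
  have hemb : Nonempty (Fin 4 ↪ X) := by
    rw [Function.Embedding.nonempty_iff_card_le]
    simpa [Nat.card_eq_fintype_card] using h4
  obtain ⟨u⟩ := hemb
  have hu : ∀ i j, i ≠ j → u i ≠ u j := fun i j hij h => hij (u.injective h)
  have key := card_orbits_of_classify (G := G) (W := Pairs X × Pairs X) (T := Fin 3)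
    pairType ?_ ?_ ?_
  · simpa using key
  · intro t
    fin_cases t
    · refine ⟨(mkPair (hu 0 1 (by decide)), mkPair (hu 2 3 (by decide))), ?_⟩
      have h1 : ({u 0, u 1} : Finset X) ≠ {u 2, u 3} := by
        intro hc
        have : u 0 ∈ ({u 2, u 3} : Finset X) := by
          rw [← hc]
          simp
        simp [hu 0 2 (by decide), hu 0 3 (by decide)] at this
      have h2 : Disjoint ({u 0, u 1} : Finset X) {u 2, u 3} := by
        simp [hu 0 2 (by decide), hu 0 3 (by decide), hu 1 2 (by decide), hu 1 3 (by decide)]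
      simp [pairType, mkPair, h1, h2]
    · refine ⟨(mkPair (hu 0 1 (by decide)), mkPair (hu 0 2 (by decide))), ?_⟩
      have h1 : ({u 0, u 1} : Finset X) ≠ {u 0, u 2} := by
        intro hc
        have : u 1 ∈ ({u 0, u 2} : Finset X) := by
          rw [← hc]
          simp
        simp [hu 1 0 (by decide), hu 1 2 (by decide)] at this
      have h2 : ¬ Disjoint ({u 0, u 1} : Finset X) {u 0, u 2} := by
        simp
      simp [pairType, mkPair, h1, h2]
    · refine ⟨(mkPair (hu 0 1 (by decide)), mkPair (hu 0 1 (by decide))), ?_⟩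
      simp [pairType, mkPair]
  · rintro g ⟨A, B⟩
    have h1 : ((g • A).1 = (g • B).1) ↔ A.1 = B.1 := by
      change g • A.1 = g • B.1 ↔ _
      exact smul_left_cancel_iff g
    have h2 : Disjoint (g • A).1 (g • B).1 ↔ Disjoint A.1 B.1 := by
      change Disjoint (g • A.1) (g • B.1) ↔ _
      rw [Finset.disjoint_iff_ne, Finset.disjoint_iff_ne]
      constructor
      · intro hh a ha b hb
        exact fun hc => hh _ (Finset.smul_mem_smul_finset ha) _
          (Finset.smul_mem_smul_finset hb) (by rw [hc])
      · intro hh a ha b hb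
        obtain ⟨x, hx, rfl⟩ := Finset.mem_smul_finset.mp ha
        obtain ⟨y, hy, rfl⟩ := Finset.mem_smul_finset.mp hb
        exact fun hc => hh x hx y hy (MulAction.injective g hc)
    simp only [pairType, Prod.smul_mk, h1, h2]
  · rintro ⟨A, B⟩ ⟨A', B'⟩ h
    simp only [pairType] at h
    by_cases h1 : A.1 = B.1
    · have h1' : A'.1 = B'.1 := by
        by_contra hc
        rw [if_pos h1, if_neg hc] at h
        split_ifs at h <;> simp at h
      obtain ⟨a, b, hab, hA⟩ := exists_pair A
      obtain ⟨a', b', hab', hA'⟩ := exists_pair A'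
      obtain ⟨g, hg⟩ := exists_smul_of_pattern (G := G) h4 ![a, b, a, b] ![a', b', a', b'] (by
        intro i j
        fin_cases i <;> fin_cases j <;> simp [hab, hab', hab.symm, hab'.symm])
      exact ⟨g, Prod.ext (smul_pairs_eq hA hA' (hg 0) (hg 1))
        (smul_pairs_eq (h1 ▸ hA) (h1' ▸ hA') (hg 0) (hg 1))⟩
    · have h1' : A'.1 ≠ B'.1 := by
        intro hc
        rw [if_neg h1, if_pos hc] at h
        split_ifs at h <;> simp at h
      rw [if_neg h1, if_neg h1'] at h
      by_cases h2 : Disjoint A.1 B.1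
      · have h2' : Disjoint A'.1 B'.1 := by
          by_contra hc
          rw [if_pos h2, if_neg hc] at h
          simp at h
        obtain ⟨a, b, hab, hA⟩ := exists_pair A
        obtain ⟨c, d, hcd, hB⟩ := exists_pair B
        obtain ⟨a', b', hab', hA'⟩ := exists_pair A'
        obtain ⟨c', d', hcd', hB'⟩ := exists_pair B'
        rw [hA, hB] at h2
        rw [hA', hB'] at h2'
        simp only [Finset.disjoint_insert_left, Finset.disjoint_insert_right,
          Finset.mem_insert, Finset.mem_singleton, not_or, Finset.disjoint_singleton_left,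
          Finset.disjoint_singleton_right] at h2 h2'
        obtain ⟨⟨h3, h5⟩, ⟨h6, h7⟩⟩ := h2
        obtain ⟨⟨h3', h5'⟩, ⟨h6', h7'⟩⟩ := h2'
        obtain ⟨g, hg⟩ := exists_smul_of_pattern (G := G) h4 ![a, b, c, d] ![a', b', c', d'] (by
          intro i j
          fin_cases i <;> fin_cases j <;>
            simp [hab, hab', hab.symm, hab'.symm, hcd, hcd', hcd.symm, hcd'.symm, h3, h5, h6, h7,
              h3', h5', h6', h7', Ne.symm h3, Ne.symm h5, Ne.symm h6, Ne.symm h7, Ne.symm h3',
              Ne.symm h5', Ne.symm h6', Ne.symm h7'])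
        exact ⟨g, Prod.ext (smul_pairs_eq hA hA' (hg 0) (hg 1))
          (smul_pairs_eq hB hB' (hg 2) (hg 3))⟩
      · have h2' : ¬ Disjoint A'.1 B'.1 := by
          intro hc
          rw [if_neg h2, if_pos hc] at h
          simp at h
        obtain ⟨a, ha1, ha2⟩ := Finset.not_disjoint_iff.mp h2
        obtain ⟨a', ha1', ha2'⟩ := Finset.not_disjoint_iff.mp h2'
        obtain ⟨b, hb, hA⟩ := exists_pair_of_mem A ha1
        obtain ⟨d, hd, hB⟩ := exists_pair_of_mem B ha2
        obtain ⟨b', hb', hA'⟩ := exists_pair_of_mem A' ha1'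
        obtain ⟨d', hd', hB'⟩ := exists_pair_of_mem B' ha2'
        have hbd : b ≠ d := by
          rintro rfl
          exact h1 (hA.trans hB.symm)
        have hbd' : b' ≠ d' := by
          rintro rfl
          exact h1' (hA'.trans hB'.symm)
        obtain ⟨g, hg⟩ := exists_smul_of_pattern (G := G) h4 ![a, b, a, d] ![a', b', a', d'] (by
          intro i j
          fin_cases i <;> fin_cases j <;>
            simp [hb, hb', hb.symm, hb'.symm, hd, hd', hd.symm, hd'.symm, hbd, hbd', hbd.symm,
              hbd'.symm])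
        exact ⟨g, Prod.ext (smul_pairs_eq hA hA' (hg 0) (hg 1))
          (smul_pairs_eq hB hB' (hg 0) (hg 3))⟩

end Classify

section Moments

variable [Fintype G] [Finite X]

/-- The number of fixed points, as a complex number. -/
noncomputable abbrev fC (X : Type v) [MulAction G X] (g : G) : ℂ := (Nat.card (fixedBy X g) : ℂ)

theorem sum_fC_mul (A : Type v) (B : Type w) [MulAction G A] [MulAction G B] [Finite A] [Finite B] :
    ∑ g : G, fC A g * fC B g =
      (Nat.card (orbitRel.Quotient G (A × B)) : ℂ) * (Nat.card G : ℂ) := by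
  rw [← sum_fixedBy_eq_card_orbits (G := G) (A × B)]
  refine Finset.sum_congr rfl fun g _ => ?_
  rw [card_fixedBy_prod]
  push_cast
  rfl

theorem card_orbits_eq_one (A : Type v) [MulAction G A] [IsPretransitive G A] [Nonempty A] :
    Nat.card (orbitRel.Quotient G A) = 1 := by
  have hsub : Subsingleton (orbitRel.Quotient G A) :=
    (pretransitive_iff_subsingleton_quotient G A).mp inferInstance
  have hne : Nonempty (orbitRel.Quotient G A) := by
    obtain ⟨x⟩ := ‹Nonempty A›
    exact ⟨Quotient.mk _ x⟩
  rw [Nat.card_eq_one_iff_unique]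
  exact ⟨hsub, hne⟩

theorem sum_fC_eq_of_pretransitive (A : Type v) [MulAction G A] [Finite A]
    [IsPretransitive G A] [Nonempty A] :
    ∑ g : G, fC A g = (Nat.card G : ℂ) := by
  have h := sum_fixedBy_eq_card_orbits (G := G) A
  rw [card_orbits_eq_one (G := G) A, Nat.cast_one, one_mul] at h
  exact h

variable [IsMultiplyPretransitive G X 4]

theorem sum_descFactorial (h4 : 4 ≤ Nat.card X) {k : ℕ} (hk : k ≤ 4) :
    ∑ g : G, ((Nat.card (fixedBy X g)).descFactorial k : ℂ) = (Nat.card G : ℂ) := by
  classical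
  haveI : Fintype X := Fintype.ofFinite X
  haveI : IsMultiplyPretransitive G X k := isMultiplyPretransitive_of_le hk h4
  haveI : Nonempty (Fin k ↪ X) := by
    rw [Function.Embedding.nonempty_iff_card_le]
    simp only [Fintype.card_fin]
    rw [← Nat.card_eq_fintype_card]
    omega
  have h := sum_fC_eq_of_pretransitive (G := G) (Fin k ↪ X)
  simpa only [fC, card_fixedBy_embedding_fin] using h

theorem cast_descFactorial_two (n : ℕ) : (n.descFactorial 2 : ℂ) = n * (n - 1) := by
  rcases n with _ | n
  · simp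
  · simp [Nat.descFactorial]
    ring

theorem cast_descFactorial_three (n : ℕ) : (n.descFactorial 3 : ℂ) = n * (n - 1) * (n - 2) := by
  rcases n with _ | _ | n
  · simp
  · simp [Nat.descFactorial]
  · simp [Nat.descFactorial]
    ring

theorem cast_descFactorial_four (n : ℕ) :
    (n.descFactorial 4 : ℂ) = n * (n - 1) * (n - 2) * (n - 3) := by
  rcases n with _ | _ | _ | n
  · simp
  · simp [Nat.descFactorial]
  · simp [Nat.descFactorial]
  · simp [Nat.descFactorial]
    ring

theorem moment_one (h4 : 4 ≤ Nat.card X) : ∑ g : G, fC X g = (Nat.card G : ℂ) := by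
  have h := sum_descFactorial (G := G) (X := X) h4 (k := 1) (by omega)
  simp only [Nat.descFactorial_one] at h
  exact h

theorem moment_two (h4 : 4 ≤ Nat.card X) : ∑ g : G, fC X g ^ 2 = 2 * (Nat.card G : ℂ) := by
  have h1 := moment_one (G := G) (X := X) h4
  have h2 := sum_descFactorial (G := G) (X := X) h4 (k := 2) (by omega)
  simp only [cast_descFactorial_two] at h2
  calc ∑ g : G, fC X g ^ 2
      = ∑ g : G, (fC X g * (fC X g - 1) + fC X g) :=
        Finset.sum_congr rfl fun g _ => by ring
    _ = _ := by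
        rw [Finset.sum_add_distrib, h1, h2]
        ring

theorem moment_three (h4 : 4 ≤ Nat.card X) : ∑ g : G, fC X g ^ 3 = 5 * (Nat.card G : ℂ) := by
  have h1 := moment_one (G := G) (X := X) h4
  have h2 := sum_descFactorial (G := G) (X := X) h4 (k := 2) (by omega)
  have h3 := sum_descFactorial (G := G) (X := X) h4 (k := 3) (by omega)
  simp only [cast_descFactorial_two] at h2
  simp only [cast_descFactorial_three] at h3
  calc ∑ g : G, fC X g ^ 3
      = ∑ g : G, (fC X g * (fC X g - 1) * (fC X g - 2) + 3 * (fC X g * (fC X g - 1)) + fC X g) :=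
        Finset.sum_congr rfl fun g _ => by ring
    _ = _ := by
        rw [Finset.sum_add_distrib, Finset.sum_add_distrib, ← Finset.mul_sum, h1, h2, h3]
        ring

theorem moment_four (h4 : 4 ≤ Nat.card X) : ∑ g : G, fC X g ^ 4 = 15 * (Nat.card G : ℂ) := by
  have h1 := moment_one (G := G) (X := X) h4
  have h2 := sum_descFactorial (G := G) (X := X) h4 (k := 2) (by omega)
  have h3 := sum_descFactorial (G := G) (X := X) h4 (k := 3) (by omega)
  have h5 := sum_descFactorial (G := G) (X := X) h4 (k := 4) (by omega)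
  simp only [cast_descFactorial_two] at h2
  simp only [cast_descFactorial_three] at h3
  simp only [cast_descFactorial_four] at h5
  calc ∑ g : G, fC X g ^ 4
      = ∑ g : G, (fC X g * (fC X g - 1) * (fC X g - 2) * (fC X g - 3)
          + 6 * (fC X g * (fC X g - 1) * (fC X g - 2))
          + 7 * (fC X g * (fC X g - 1)) + fC X g) :=
        Finset.sum_congr rfl fun g _ => by ring
    _ = _ := by
        rw [Finset.sum_add_distrib, Finset.sum_add_distrib, Finset.sum_add_distrib,
          ← Finset.mul_sum, ← Finset.mul_sum, h1, h2, h3, h5]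
        ring

theorem isPretransitive_pairs (h4 : 4 ≤ Nat.card X) : IsPretransitive G (Pairs X) := by
  haveI : IsMultiplyPretransitive G X 2 := isMultiplyPretransitive_of_le (by omega) h4
  exact Set.powersetCard.isPretransitive_of_isMultiplyPretransitive (G := G) (α := X) inferInstance

theorem nonempty_pairs (h4 : 4 ≤ Nat.card X) : Nonempty (Pairs X) := by
  classical
  haveI : Fintype X := Fintype.ofFinite X
  have hemb : Nonempty (Fin 4 ↪ X) := by
    rw [Function.Embedding.nonempty_iff_card_le]
    simpa [Nat.card_eq_fintype_card] using h4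
  obtain ⟨u⟩ := hemb
  exact ⟨mkPair (a := u 0) (b := u 1) (fun h => absurd (u.injective h) (by decide))⟩

theorem moment_d (h4 : 4 ≤ Nat.card X) : ∑ g : G, fC (Pairs X) g = (Nat.card G : ℂ) := by
  haveI := isPretransitive_pairs (G := G) (X := X) h4
  haveI := nonempty_pairs (X := X) h4
  exact sum_fC_eq_of_pretransitive (G := G) (Pairs X)

theorem moment_df (h4 : 4 ≤ Nat.card X) :
    ∑ g : G, fC (Pairs X) g * fC X g = 2 * (Nat.card G : ℂ) := by
  rw [sum_fC_mul, card_orbits_pairs_point h4]
  norm_cast

theorem moment_dd (h4 : 4 ≤ Nat.card X) :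
    ∑ g : G, fC (Pairs X) g * fC (Pairs X) g = 3 * (Nat.card G : ℂ) := by
  rw [sum_fC_mul, card_orbits_pairs_pairs h4]
  norm_cast

theorem moment_dff (h4 : 4 ≤ Nat.card X) :
    ∑ g : G, fC (Pairs X) g * fC X g ^ 2 = 6 * (Nat.card G : ℂ) := by
  have h := sum_fC_mul (G := G) (Pairs X) (Fin 2 ↪ X)
  rw [card_orbits_pairs_emb h4] at h
  have h2 : ∀ g : G, fC (Fin 2 ↪ X) g = fC X g * (fC X g - 1) := by
    intro g
    simp only [fC, card_fixedBy_embedding_fin, cast_descFactorial_two]
  simp only [h2] at h
  have h3 := moment_df (G := G) (X := X) h4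
  calc ∑ g : G, fC (Pairs X) g * fC X g ^ 2
      = ∑ g : G, (fC (Pairs X) g * (fC X g * (fC X g - 1)) + fC (Pairs X) g * fC X g) :=
        Finset.sum_congr rfl fun g _ => by ring
    _ = _ := by
        rw [Finset.sum_add_distrib, h, h3]
        push_cast
        ring

end Moments

section Irr

variable [Fintype G] [Finite X] [IsMultiplyPretransitive G X 4]

omit [DecidableEq X] in
theorem classInner_real (a b : G → ℂ) (ha : ∀ g, conj (b g) = b g) :
    classInner a b = (∑ g : G, a g * b g) / (Nat.card G : ℂ) := by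
  rw [classInner_def, div_eq_inv_mul]
  simp only [ha]

omit [DecidableEq X] [Finite X] [IsMultiplyPretransitive G X 4] in
theorem sum_one_C : ∑ _g : G, (1 : ℂ) = (Nat.card G : ℂ) := by
  simp [Nat.card_eq_fintype_card]

omit [DecidableEq X] [Finite X] [IsMultiplyPretransitive G X 4] in
theorem conj_fC (A : Type v) [MulAction G A] (g : G) : conj (fC A g) = fC A g :=
  Complex.conj_natCast _

/-- `f - 1` is an irreducible character. -/
theorem irr_f_sub_one (h4 : 4 ≤ Nat.card X) : IsIrrCharacter G (fun g => fC X g - 1) := by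
  haveI : IsMultiplyPretransitive G X 2 := isMultiplyPretransitive_of_le (by omega) h4
  haveI : IsMultiplyPretransitive G X 1 := isMultiplyPretransitive_of_le (by omega) h4
  haveI : IsPretransitive G X := is_one_pretransitive_iff.mp inferInstance
  exact (permChar_sub_one_isIrr_iff (G := G) X (by omega)).mpr inferInstance

/-- `d - f` is an irreducible character. -/
theorem irr_d_sub_f (h4 : 4 ≤ Nat.card X) : IsIrrCharacter G (fun g => fC (Pairs X) g - fC X g) := by
  haveI := isPretransitive_pairs (G := G) (X := X) h4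
  haveI := nonempty_pairs (X := X) h4
  have hG : (Nat.card G : ℂ) ≠ 0 := Nat.cast_ne_zero.mpr Nat.card_pos.ne'
  have m1 := moment_one (G := G) (X := X) h4
  have m2 := moment_two (G := G) (X := X) h4
  have md := moment_d (G := G) (X := X) h4
  have mdf := moment_df (G := G) (X := X) h4
  have mdd := moment_dd (G := G) (X := X) h4
  have hone : IsIrrCharacter G (fun _ : G => (1 : ℂ)) := isIrrCharacter_one
  have hψ := irr_f_sub_one (G := G) (X := X) h4
  have hπ : IsCharacter G (fun g => fC (Pairs X) g) := permChar_isCharacter (G := G) (Pairs X)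
  have c1 : IsCharacter G ((fun g => fC (Pairs X) g) - fun _ => (1 : ℂ)) := by
    refine isCharacter_sub_of_constituent hπ hone ?_
    rw [classInner_real _ _ (fun g => by simp only [map_sub, map_pow, map_mul, conj_fC, map_one])]
    simp only [mul_one]
    rw [md]
    exact div_ne_zero hG hG
  have c2 : IsCharacter G (((fun g => fC (Pairs X) g) - fun _ => (1 : ℂ)) - fun g => fC X g - 1) := by
    refine isCharacter_sub_of_constituent c1 hψ ?_
    rw [classInner_real _ _ (fun g => by simp only [map_sub, map_pow, map_mul, conj_fC, map_one])]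
    simp only [Pi.sub_apply]
    have h : ∑ g : G, (fC (Pairs X) g - 1) * (fC X g - 1) =
        (Nat.card G : ℂ) := by
      calc _ = ∑ g : G, (fC (Pairs X) g * fC X g - fC (Pairs X) g - fC X g + 1) :=
            Finset.sum_congr rfl fun g _ => by
              ring
        _ = _ := by
            rw [Finset.sum_add_distrib, Finset.sum_sub_distrib, Finset.sum_sub_distrib, mdf, md, m1,
              sum_one_C]
            ring
    rw [h]
    exact div_ne_zero hG hG
  have heq : (((fun g => fC (Pairs X) g) - fun _ => (1 : ℂ)) - fun g => fC X g - 1 : G → ℂ) =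
      fun g => fC (Pairs X) g - fC X g := by
    funext g
    simp only [Pi.sub_apply]
    ring
  rw [heq] at c2
  refine isIrr_of_character_norm_one c2 ?_
  rw [classInner_real _ _ (fun g => by simp only [map_sub, map_pow, map_mul, conj_fC, map_one])]
  have h : ∑ g : G, (fC (Pairs X) g - fC X g) * (fC (Pairs X) g - fC X g) = (Nat.card G : ℂ) := by
    calc _ = ∑ g : G, (fC (Pairs X) g * fC (Pairs X) g - 2 * (fC (Pairs X) g * fC X g) + fC X g ^ 2) :=
          Finset.sum_congr rfl fun g _ => by ring
      _ = _ := by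
          rw [Finset.sum_add_distrib, Finset.sum_sub_distrib, ← Finset.mul_sum, mdd, mdf, m2]
          ring
  rw [h]
  exact div_self hG

/-- `(f - 1) ^ 2 - d` is an irreducible character. -/
theorem irr_sq_sub_d (h4 : 4 ≤ Nat.card X) :
    IsIrrCharacter G (fun g => (fC X g - 1) ^ 2 - fC (Pairs X) g) := by
  classical
  haveI : Fintype X := Fintype.ofFinite X
  have hG : (Nat.card G : ℂ) ≠ 0 := Nat.cast_ne_zero.mpr Nat.card_pos.ne'
  have m1 := moment_one (G := G) (X := X) h4
  have m2 := moment_two (G := G) (X := X) h4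
  have m3 := moment_three (G := G) (X := X) h4
  have m4 := moment_four (G := G) (X := X) h4
  have md := moment_d (G := G) (X := X) h4
  have mdf := moment_df (G := G) (X := X) h4
  have mdd := moment_dd (G := G) (X := X) h4
  have mdff := moment_dff (G := G) (X := X) h4
  have hone : IsIrrCharacter G (fun _ : G => (1 : ℂ)) := isIrrCharacter_one
  have hψ := irr_f_sub_one (G := G) (X := X) h4
  have hχ := irr_d_sub_f (G := G) (X := X) h4
  haveI : IsMultiplyPretransitive G X 2 := isMultiplyPretransitive_of_le (by omega) h4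
  haveI : Nonempty (Fin 2 ↪ X) := by
    rw [Function.Embedding.nonempty_iff_card_le]
    simp only [Fintype.card_fin]
    rw [← Nat.card_eq_fintype_card]
    omega
  have hπ' : IsCharacter G (fun g => fC (Fin 2 ↪ X) g) := permChar_isCharacter (G := G) (Fin 2 ↪ X)
  have he : ∀ g : G, fC (Fin 2 ↪ X) g = fC X g * (fC X g - 1) := by
    intro g
    simp only [fC, card_fixedBy_embedding_fin, cast_descFactorial_two]
  have hπ : IsCharacter G (fun g => fC X g * (fC X g - 1)) := by
    have : (fun g => fC (Fin 2 ↪ X) g) = fun g => fC X g * (fC X g - 1) := funext he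
    rwa [this] at hπ'
  have c1 : IsCharacter G ((fun g => fC X g * (fC X g - 1)) - fun _ => (1 : ℂ)) := by
    refine isCharacter_sub_of_constituent hπ hone ?_
    rw [classInner_real _ _ (fun g => by simp only [map_sub, map_pow, map_mul, conj_fC, map_one])]
    have h : ∑ g : G, fC X g * (fC X g - 1) * 1 = (Nat.card G : ℂ) := by
      calc _ = ∑ g : G, (fC X g ^ 2 - fC X g) := Finset.sum_congr rfl fun g _ => by ring
        _ = _ := by
            rw [Finset.sum_sub_distrib, m1, m2]
            ring
    rw [h]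
    exact div_ne_zero hG hG
  have c2 : IsCharacter G (((fun g => fC X g * (fC X g - 1)) - fun _ => (1 : ℂ)) -
      fun g => fC X g - 1) := by
    refine isCharacter_sub_of_constituent c1 hψ ?_
    rw [classInner_real _ _ (fun g => by simp only [map_sub, map_pow, map_mul, conj_fC, map_one])]
    simp only [Pi.sub_apply]
    have h : ∑ g : G, (fC X g * (fC X g - 1) - 1) * (fC X g - 1) =
        2 * (Nat.card G : ℂ) := by
      calc _ = ∑ g : G, (fC X g ^ 3 - 2 * fC X g ^ 2 + 1) :=
            Finset.sum_congr rfl fun g _ => by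
              ring
        _ = _ := by
            rw [Finset.sum_add_distrib, Finset.sum_sub_distrib, ← Finset.mul_sum, m3, m2, sum_one_C]
            ring
    rw [h]
    exact div_ne_zero (mul_ne_zero two_ne_zero hG) hG
  have c3 : IsCharacter G ((((fun g => fC X g * (fC X g - 1)) - fun _ => (1 : ℂ)) -
      fun g => fC X g - 1) - fun g => fC X g - 1) := by
    refine isCharacter_sub_of_constituent c2 hψ ?_
    rw [classInner_real _ _ (fun g => by simp only [map_sub, map_pow, map_mul, conj_fC, map_one])]
    simp only [Pi.sub_apply]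
    have h : ∑ g : G, (fC X g * (fC X g - 1) - 1 - (fC X g - 1)) * (fC X g - 1) =
        (Nat.card G : ℂ) := by
      calc _ = ∑ g : G, (fC X g ^ 3 - 3 * fC X g ^ 2 + 2 * fC X g) :=
            Finset.sum_congr rfl fun g _ => by
              ring
        _ = _ := by
            rw [Finset.sum_add_distrib, Finset.sum_sub_distrib, ← Finset.mul_sum, ← Finset.mul_sum,
              m3, m2, m1]
            ring
    rw [h]
    exact div_ne_zero hG hG
  have c4 : IsCharacter G ((((fun g => fC X g * (fC X g - 1)) - fun _ => (1 : ℂ)) -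
      fun g => fC X g - 1) - (fun g => fC X g - 1) - fun g => fC (Pairs X) g - fC X g) := by
    refine isCharacter_sub_of_constituent c3 hχ ?_
    rw [classInner_real _ _ (fun g => by simp only [map_sub, map_pow, map_mul, conj_fC, map_one])]
    simp only [Pi.sub_apply]
    have h : ∑ g : G, (fC X g * (fC X g - 1) - 1 - (fC X g - 1) - (fC X g - 1)) *
        (fC (Pairs X) g - fC X g) = (Nat.card G : ℂ) := by
      calc _ = ∑ g : G, (fC (Pairs X) g * fC X g ^ 2 - 3 * (fC (Pairs X) g * fC X g)
            + fC (Pairs X) g - fC X g ^ 3 + 3 * fC X g ^ 2 - fC X g) :=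
            Finset.sum_congr rfl fun g _ => by
              ring
        _ = _ := by
            simp only [Finset.sum_add_distrib, Finset.sum_sub_distrib, ← Finset.mul_sum,
              m3, m2, m1, md, mdf, mdff]
            ring
    rw [h]
    exact div_ne_zero hG hG
  have heq : (((fun g => fC X g * (fC X g - 1)) - fun _ => (1 : ℂ)) -
      (fun g => fC X g - 1) - (fun g => fC X g - 1) - fun g => fC (Pairs X) g - fC X g : G → ℂ) =
      fun g => (fC X g - 1) ^ 2 - fC (Pairs X) g := by
    funext g
    simp only [Pi.sub_apply]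
    ring
  rw [heq] at c4
  refine isIrr_of_character_norm_one c4 ?_
  rw [classInner_real _ _ (fun g => by simp only [map_sub, map_pow, map_mul, conj_fC, map_one])]
  have h : ∑ g : G, ((fC X g - 1) ^ 2 - fC (Pairs X) g) * ((fC X g - 1) ^ 2 - fC (Pairs X) g) =
      (Nat.card G : ℂ) := by
    calc _ = ∑ g : G, (fC X g ^ 4 - 4 * fC X g ^ 3 + 6 * fC X g ^ 2 - 4 * fC X g + 1
          - 2 * (fC (Pairs X) g * fC X g ^ 2) + 4 * (fC (Pairs X) g * fC X g) - 2 * fC (Pairs X) g
          + fC (Pairs X) g * fC (Pairs X) g) :=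
          Finset.sum_congr rfl fun g _ => by ring
      _ = _ := by
          simp only [Finset.sum_add_distrib, Finset.sum_sub_distrib, ← Finset.mul_sum,
            m4, m3, m2, m1, md, mdf, mdff, mdd, sum_one_C]
          ring
  rw [h]
  exact div_self hG

end Irr

end Main

end Cfsg.Agent.Lib.AltChar
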