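import Mathlib
import Cfsg.Agent.Lib.AltChar.OmegaModel
import Cfsg.Agent.Lib.AltChar.SLVal
import Cfsg.Agent.Lib.Classical.OrderForms
import Cfsg.Agent.Lib.Classical.OrderMinus
import Cfsg.Agent.Lib.Classical.OrthAb
import Cfsg.Agent.Lib.Classical.OrthBridge

/-!
# Squares modulo the commutator subgroup in Sylow `2`-subgroups of `Ω`, `q` odd.
-/

set_option autoImplicit false
set_option linter.unusedSectionVars false

open Equiv Matrix
open scoped MatrixGroups commutatorElement
open Cfsg.Agent.Lib.Classical.Abs Cfsg.Agent.Lib.Classical.Orth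

namespace Cfsg.Agent.Lib.AltChar

section Numbers

variable {q : ℕ}

theorem val_sq_split (hq : 2 ≤ q) :
    padicValNat 2 (q ^ 2 - 1) = padicValNat 2 (q - 1) + padicValNat 2 (q + 1) := by
  have h : q ^ 2 - 1 = (q - 1) * (q + 1) := by
    obtain ⟨x, rfl⟩ : ∃ x, q = x + 1 := ⟨q - 1, by omega⟩
    simp only [Nat.add_sub_cancel]
    have : (x + 1) ^ 2 = x * (x + 1 + 1) + 1 := by ring
    omega
  rw [h, padicValNat.mul (by omega) (by omega)]

theorem val_pow_split (hq : 2 ≤ q) {m : ℕ} (hm : m ≠ 0) :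
    padicValNat 2 (q ^ (2 * m) - 1) = padicValNat 2 (q ^ m - 1) + padicValNat 2 (q ^ m + 1) := by
  have h1 : 1 < q ^ m := Nat.one_lt_pow hm (by omega)
  have h : q ^ (2 * m) - 1 = (q ^ m - 1) * (q ^ m + 1) := by
    rw [mul_comm, pow_mul]
    exact val_sq_split_aux (q ^ m)
  rw [h, padicValNat.mul (by omega) (by omega)]
where
  val_sq_split_aux (a : ℕ) : a ^ 2 - 1 = (a - 1) * (a + 1) := by
    rcases a with _ | x
    · simp
    · simp only [Nat.add_sub_cancel]
      have : (x + 1) ^ 2 = x * (x + 1 + 1) + 1 := by ring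
      omega

theorem val_prod_order {q : ℕ} (hq : 2 ≤ q) (hodd : Odd q) (a b m : ℕ) (hb : b ≠ 0) :
    padicValNat 2 (2 * q ^ a * b * ∏ i ∈ Finset.range m, (q ^ (2 * (i + 1)) - 1)) =
      1 + padicValNat 2 b + m * padicValNat 2 (q ^ 2 - 1) + padicValNat 2 m.factorial := by
  have hnd : ¬ 2 ∣ q := by
    obtain ⟨c, rfl⟩ := hodd
    omega
  have hv : padicValNat 2 (q ^ a) = 0 :=
    padicValNat.eq_zero_of_not_dvd fun h => hnd (Nat.Prime.dvd_of_dvd_pow Nat.prime_two h)
  have hne2 : ∏ i ∈ Finset.range m, (q ^ (2 * (i + 1)) - 1) ≠ 0 := by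
    refine Finset.prod_ne_zero_iff.mpr fun i _ => ?_
    have : 1 < q ^ (2 * (i + 1)) := Nat.one_lt_pow (by omega) (by omega)
    omega
  have hqa : q ^ a ≠ 0 := pow_ne_zero _ (by omega)
  rw [padicValNat.mul (mul_ne_zero (mul_ne_zero (by norm_num) hqa) hb) hne2,
    padicValNat.mul (mul_ne_zero (by norm_num) hqa) hb, padicValNat.mul (by norm_num) hqa, hv,
    val_prod_sp hq hodd, padicValNat.self (by norm_num)]
  ring

theorem val_odd_order {q : ℕ} (hq : 2 ≤ q) (hodd : Odd q) (a m : ℕ) :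
    padicValNat 2 (2 * q ^ a * ∏ i ∈ Finset.range m, (q ^ (2 * (i + 1)) - 1)) =
      1 + m * padicValNat 2 (q ^ 2 - 1) + padicValNat 2 m.factorial := by
  have := val_prod_order hq hodd a 1 m (by norm_num)
  simpa using this

theorem val_factorial_succ (m : ℕ) :
    padicValNat 2 (m + 1).factorial = padicValNat 2 (m + 1) + padicValNat 2 m.factorial := by
  rw [Nat.factorial_succ, padicValNat.mul (by omega) (Nat.factorial_ne_zero m)]

/-- Even case of the plus type. -/
theorem val_plus_even (hq : 2 ≤ q) (hodd : Odd q) {m : ℕ} (hm : Even (m + 1)) :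
    1 + padicValNat 2 (q ^ (m + 1) - 1) + m * padicValNat 2 (q ^ 2 - 1) + padicValNat 2 m.factorial =
      (m + 1) * padicValNat 2 (q ^ 2 - 1) + padicValNat 2 (m + 1).factorial + 0 := by
  obtain ⟨k, hk⟩ := hm
  have hk' : m + 1 = 2 * k := by omega
  have hk0 : k ≠ 0 := by omega
  have hv1 : padicValNat 2 (q ^ (m + 1) - 1) = padicValNat 2 (q ^ 2 - 1) + padicValNat 2 k := by
    rw [hk']
    exact val_pow_two_mul_sub_one hq hodd hk0
  have hv2 : padicValNat 2 (m + 1) = 1 + padicValNat 2 k := by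
    rw [hk', padicValNat.mul (by omega) hk0, padicValNat.self (by norm_num)]
  rw [val_factorial_succ, hv1, hv2]
  ring

/-- Odd rank, `q ≡ 1 (mod 4)`, plus type. -/
theorem val_plus_odd_one (hq : 2 ≤ q) (h4 : 4 ∣ q - 1) {m : ℕ} (hm : Odd (m + 1)) :
    1 + padicValNat 2 (q ^ (m + 1) - 1) + m * padicValNat 2 (q ^ 2 - 1) + padicValNat 2 m.factorial =
      (m + 1) * padicValNat 2 (q ^ 2 - 1) + padicValNat 2 (m + 1).factorial + 0 := by
  have hodd := odd_of_one hq h4
  have h1 := val_add_one_of_one hq h4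
  have h2 := val_sq_split hq
  have hnd : padicValNat 2 (m + 1) = 0 :=
    padicValNat.eq_zero_of_not_dvd (by obtain ⟨c, hc⟩ := hm; omega)
  rw [val_pow_odd_sub_one hq hodd hm, val_factorial_succ, hnd, h2, h1]
  ring

/-- Odd rank, `q ≡ 3 (mod 4)`, plus type. -/
theorem val_plus_odd_three (hq : 2 ≤ q) (h4 : 4 ∣ q + 1) {m : ℕ} (hm : Odd (m + 1)) :
    1 + padicValNat 2 (q ^ (m + 1) - 1) + m * padicValNat 2 (q ^ 2 - 1) + padicValNat 2 m.factorial =
      m * padicValNat 2 (q ^ 2 - 1) + padicValNat 2 m.factorial + 2 := by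
  have hodd := odd_of_three hq h4
  rw [val_pow_odd_sub_one hq hodd hm, val_sub_one_of_three hq h4]
  ring

/-- The valuation of `q^m + 1`. -/
theorem val_add_one_even (hq : 2 ≤ q) (hodd : Odd q) {m : ℕ} (hm : Even (m + 1)) :
    padicValNat 2 (q ^ (m + 1) + 1) = 1 := by
  obtain ⟨k, hk⟩ := hm
  have hk' : m + 1 = 2 * k := by omega
  have hk0 : k ≠ 0 := by omega
  have h1 := val_pow_split hq (m := 2 * k) (by omega)
  rw [val_pow_two_mul_sub_one hq hodd (k := 2 * k) (by omega),
    val_pow_two_mul_sub_one hq hodd hk0, padicValNat.mul (by omega) hk0,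
    padicValNat.self (by norm_num)] at h1
  rw [hk']
  omega

theorem val_add_one_odd (hq : 2 ≤ q) (hodd : Odd q) {m : ℕ} (hm : Odd (m + 1)) :
    padicValNat 2 (q ^ (m + 1) + 1) = padicValNat 2 (q + 1) := by
  have h1 := val_pow_split hq (m := m + 1) (by omega)
  have hnd : padicValNat 2 (m + 1) = 0 :=
    padicValNat.eq_zero_of_not_dvd (by obtain ⟨c, hc⟩ := hm; omega)
  rw [val_pow_two_mul_sub_one hq hodd (k := m + 1) (by omega), hnd,
    val_pow_odd_sub_one hq hodd hm, val_sq_split hq] at h1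
  omega

/-- The minus type when the valuation of `q^m + 1` is `1`. -/
theorem val_minus_two {m : ℕ} (h : padicValNat 2 (q ^ (m + 1) + 1) = 1) :
    1 + padicValNat 2 (q ^ (m + 1) + 1) + m * padicValNat 2 (q ^ 2 - 1) + padicValNat 2 m.factorial =
      m * padicValNat 2 (q ^ 2 - 1) + padicValNat 2 m.factorial + 2 := by
  rw [h]
  ring

/-- Odd rank, `q ≡ 3 (mod 4)`, minus type. -/
theorem val_minus_odd_three (hq : 2 ≤ q) (h4 : 4 ∣ q + 1) {m : ℕ} (hm : Odd (m + 1)) :
    1 + padicValNat 2 (q ^ (m + 1) + 1) + m * padicValNat 2 (q ^ 2 - 1) + padicValNat 2 m.factorial =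
      (m + 1) * padicValNat 2 (q ^ 2 - 1) + padicValNat 2 (m + 1).factorial + 0 := by
  have hodd := odd_of_three hq h4
  have hnd : padicValNat 2 (m + 1) = 0 :=
    padicValNat.eq_zero_of_not_dvd (by obtain ⟨c, hc⟩ := hm; omega)
  rw [val_add_one_odd hq hodd hm, val_factorial_succ, hnd, val_sq_split hq,
    val_sub_one_of_three hq h4]
  ring

theorem mod_four_cases (hq : 2 ≤ q) (hodd : Odd q) : 4 ∣ q - 1 ∨ 4 ∣ q + 1 := by
  obtain ⟨c, hc⟩ := hodd
  have : q % 4 = 1 ∨ q % 4 = 3 := by omega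
  rcases this with h | h
  · left
    omega
  · right
    omega

end Numbers

section Main

variable {F : Type*} [Field F] [Fintype F]

theorem not_square_of_three (h4 : 4 ∣ Fintype.card F + 1) : ¬ IsSquare (-1 : F) := by
  rw [FiniteField.isSquare_neg_one_iff]
  push Not
  omega

theorem square_of_one (hq : 2 ≤ Fintype.card F) (h4 : 4 ∣ Fintype.card F - 1) : IsSquare (-1 : F) := by
  rw [FiniteField.isSquare_neg_one_iff]
  omega

theorem two_ne_zero_of_odd (hF : Odd (Fintype.card F)) : (2 : F) ≠ 0 := by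
  intro h
  have h0 : ringChar F = 2 := CharP.ringChar_of_prime_eq_zero Nat.prime_two (by exact_mod_cast h)
  have h1 := FiniteField.even_card_iff_char_two.mp h0
  obtain ⟨c, hc⟩ := hF
  omega

/-- The order of the plane. -/
theorem val_card_O2 (hF : Odd (Fintype.card F)) :
    (Nat.card (O2 F)).factorization 2 = padicValNat 2 (Fintype.card F ^ 2 - 1) := by
  classical
  have h2 : (2 : F) ≠ 0 := two_ne_zero_of_odd hF
  have hq : 2 ≤ Fintype.card F := Fintype.one_lt_card
  rw [Nat.factorization_def _ Nat.prime_two]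
  rcases mod_four_cases hq hF with h4 | h4
  · obtain ⟨i, hi⟩ := square_of_one hq h4
    have hi0 : i ≠ 0 := by
      rintro rfl
      simp at hi
    have hE : FormEquiv (diagForm (fun _ : Fin 2 => (1 : F))) (Cfsg.quadFormPlus 1 F) :=
      (diag_equiv_card hF (by simp) _ _ (by simp)
        (by rintro (j | j) <;> simp) i hi0 (by
          simp [Fintype.prod_sum_type]
          rw [pow_two, ← hi]
          ring)).trans (plus_to_diag h2 1).symm
    obtain ⟨e⟩ := hE.nonempty_mulEquiv
    rw [Nat.card_congr e.toEquiv, card_isometryGroup' _ (Qplus 1 F) (Qplus_apply 1), Qplus_order 0,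
      val_prod_order hq hF _ _ _ (by have := Nat.one_lt_pow (n := 0 + 1) (by omega) (by omega : 1 < Fintype.card F); omega)]
    simp only [zero_add, pow_one, zero_mul, padicValNat.one, add_zero, Nat.factorial_zero, padicValNat_one_right]
    rw [val_sq_split hq, val_add_one_of_one hq h4]
    ring
  · have hns := not_square_of_three (F := F) h4
    have hab : ∀ z₁ z₂ : F, z₁ ^ 2 + 0 * z₁ * z₂ + 1 * z₂ ^ 2 = 0 → z₁ = 0 ∧ z₂ = 0 := by
      intro z₁ z₂ h
      have hz₂ : z₂ = 0 := by
        by_contra hc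
        apply hns
        refine ⟨z₁ / z₂, ?_⟩
        field_simp
        linear_combination -h
      subst hz₂
      simpa using h
    have hE : FormEquiv (diagForm (fun _ : Fin 2 => (1 : F))) (Cfsg.quadFormMinus 0 F 0 1) :=
      (diag_equiv_card hF (by simp) _ _ (by simp)
        (by
          rintro ((j | j) | j)
          · exact j.elim0
          · exact j.elim0
          · fin_cases j <;> simp) 1 one_ne_zero (by
          simp [Fintype.prod_sum_type, Fin.prod_univ_two])).trans (minus_to_diag h2 0 0 1).symm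
    obtain ⟨e⟩ := hE.nonempty_mulEquiv
    rw [Nat.card_congr e.toEquiv, card_isometryGroup' _ (Qminus 0 F 0 1) (Qminus_apply 0 0 1), Qminus_order hab 0,
      val_prod_order hq hF _ _ _ (by omega)]
    simp only [zero_add, pow_one, zero_mul, padicValNat.one, add_zero, Nat.factorial_zero, padicValNat_one_right]
    rw [val_sq_split hq, val_sub_one_of_three hq h4]

/-- From an isometry with a model form. -/
theorem sylExp_of_formEquiv (hF : Odd (Fintype.card F)) {ι : Type} [Fintype ι] [DecidableEq ι]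
    {Q : (ι → F) → F} (s t : ℕ) (hs : 2 ≤ s) (c : Fin t → F)
    (hE : FormEquiv Q (diagForm (Sum.elim (fun _ : Fin 2 × Fin s => (1 : F)) c)))
    (hidx : (commutator (Cfsg.isometryGroup F Q)).index = 4)
    (hval : padicValNat 2 (Nat.card (Cfsg.isometryGroup F Q)) =
      s * padicValNat 2 (Fintype.card F ^ 2 - 1) + padicValNat 2 s.factorial + t)
    (P : Sylow 2 (commutator (Cfsg.isometryGroup F Q))) :
    ∀ x : (P : Subgroup (commutator (Cfsg.isometryGroup F Q))),
      x ^ 2 ∈ commutator (P : Subgroup (commutator (Cfsg.isometryGroup F Q))) := by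
  classical
  have h2 : (2 : F) ≠ 0 := two_ne_zero_of_odd hF
  obtain ⟨e⟩ := hE.symm.nonempty_mulEquiv
  obtain ⟨P₁, hc, hP₁⟩ := exists_P1 h2 s t hs c
  refine sylExp_of_index4 (P₁.map e.toMonoidHom) _ ?_ hidx ?_ P
  · rw [Nat.card_congr (Subgroup.equivMapOfInjective _ e.toMonoidHom e.injective).symm.toEquiv, hc,
      val_card_O2 hF, Nat.factorization_def _ Nat.prime_two, hval]
  · rintro g hg
    obtain ⟨⟨g', hg', rfl⟩, hg2⟩ := Subgroup.mem_inf.mp hg
    have h1 : g' ∈ commutator _ := by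
      have := map_mem_commutator e.symm.toMonoidHom hg2
      simpa using this
    have h3 := hP₁ g' (Subgroup.mem_inf.mpr ⟨hg', h1⟩)
    have h4 := Subgroup.mem_map_of_mem e.toMonoidHom h3
    rw [Subgroup.map_commutator, map_pow] at h4
    refine Subgroup.commutator_mono ?_ ?_ h4 <;>
    · rintro _ ⟨y, hy, rfl⟩
      refine Subgroup.mem_inf.mpr ⟨⟨y, (Subgroup.mem_inf.mp hy).1, rfl⟩, ?_⟩
      exact map_mem_commutator e.toMonoidHom (Subgroup.mem_inf.mp hy).2

/-- The index of the commutator subgroup. -/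
theorem index_of_bundled (hF : Odd (Fintype.card F)) {ι : Type} [Fintype ι] [DecidableEq ι]
    (Q₀ : (ι → F) → F) (Q : QuadraticForm F (ι → F)) (hQ₀ : ∀ v, Q v = Q₀ v)
    (hnd : (QuadraticMap.polarBilin Q).Nondegenerate) (hn : 2 ≤ Fintype.card ι) :
    (commutator (Cfsg.isometryGroup F Q₀)).index = 4 := by
  have h2 : (2 : F) ≠ 0 := two_ne_zero_of_odd hF
  have : Q₀ = ⇑Q := by
    funext v
    rw [hQ₀]
  subst this
  rw [← index_commutator (Q := Q) h2 hnd (by simpa using hn), ← index_Omega Q]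

end Main

section Targets

variable {F : Type*} [Field F] [Fintype F]

theorem omega_odd_exp (hF : Odd (Fintype.card F)) (m : ℕ) (hm : 2 ≤ m)
    (P : Sylow 2 (Cfsg.Omega F (Cfsg.quadFormOdd m F))) :
    ∀ x : (P : Subgroup (Cfsg.Omega F (Cfsg.quadFormOdd m F))),
      x ^ 2 ∈ commutator (P : Subgroup (Cfsg.Omega F (Cfsg.quadFormOdd m F))) := by
  classical
  have h2 : (2 : F) ≠ 0 := two_ne_zero_of_odd hF
  have hq : 2 ≤ Fintype.card F := Fintype.one_lt_card
  have hd : (-1 : F) ^ m ≠ 0 := pow_ne_zero _ (by simp)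
  refine sylExp_of_formEquiv hF m 1 hm ![(-1) ^ m] ?_ ?_ ?_ P
  · refine (odd_to_diag h2 m).trans (diag_equiv_card hF (by simp; ring) _ _ ?_ ?_ 1 one_ne_zero ?_)
    · rintro (j | j | j) <;> simp
    · rintro (j | j)
      · simp
      · fin_cases j
        simpa using hd
    · simp [Fintype.prod_sum_type]
  · exact index_of_bundled hF _ (Qodd m F) (Qodd_apply m) (Qodd_nondeg h2 m) (by simp; omega)
  · rw [card_isometryGroup' _ (Qodd m F) (Qodd_apply m), Qodd_order h2, val_odd_order hq hF]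
    ring

theorem omega_plus_exp (hF : Odd (Fintype.card F)) (m : ℕ) (hm : 1 ≤ m) (hm' : Even m ∨ 4 ≤ m)
    (P : Sylow 2 (Cfsg.Omega F (Cfsg.quadFormPlus m F))) :
    ∀ x : (P : Subgroup (Cfsg.Omega F (Cfsg.quadFormPlus m F))),
      x ^ 2 ∈ commutator (P : Subgroup (Cfsg.Omega F (Cfsg.quadFormPlus m F))) := by
  classical
  have h2 : (2 : F) ≠ 0 := two_ne_zero_of_odd hF
  have hq : 2 ≤ Fintype.card F := Fintype.one_lt_card
  obtain ⟨n, rfl⟩ : ∃ n, m = n + 1 := ⟨m - 1, by omega⟩
  have hidx : (commutator (Cfsg.isometryGroup F (Cfsg.quadFormPlus (n + 1) F))).index = 4 :=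
    index_of_bundled hF _ (Qplus (n + 1) F) (Qplus_apply (n + 1)) (Qplus_nondeg (n + 1)) (by simp; omega)
  have hpos : Fintype.card F ^ (n + 1) - 1 ≠ 0 := by
    have := Nat.one_lt_pow (n := n + 1) (by omega) (by omega : 1 < Fintype.card F)
    omega
  have hval := val_prod_order hq hF ((n + 1) * n) _ n hpos
  rw [← Qplus_order (F := F) n, ← card_isometryGroup' _ (Qplus (n + 1) F) (Qplus_apply (n + 1))] at hval
  have hw : ∀ j : Fin (n + 1) ⊕ Fin (n + 1), (Sum.elim (fun _ : Fin (n + 1) => (1 : F)) (fun _ : Fin (n + 1) => (-1 : F))) j ≠ 0 := by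
    rintro (j | j) <;> simp
  have hprod : ∏ j, (Sum.elim (fun _ : Fin (n + 1) => (1 : F)) (fun _ : Fin (n + 1) => (-1 : F))) j = (-1) ^ (n + 1) := by
    simp [Fintype.prod_sum_type]
  have hcase1 : ∀ (r : F), r ≠ 0 → (-1 : F) ^ (n + 1) = r ^ 2 → 2 ≤ n + 1 →
      1 + padicValNat 2 (Fintype.card F ^ (n + 1) - 1) + n * padicValNat 2 (Fintype.card F ^ 2 - 1) +
        padicValNat 2 n.factorial = (n + 1) * padicValNat 2 (Fintype.card F ^ 2 - 1) +
          padicValNat 2 (n + 1).factorial + 0 →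
      ∀ x : (P : Subgroup (Cfsg.Omega F (Cfsg.quadFormPlus (n + 1) F))),
        x ^ 2 ∈ commutator (P : Subgroup (Cfsg.Omega F (Cfsg.quadFormPlus (n + 1) F))) := by
    intro r hr hr2 hs hv
    refine sylExp_of_formEquiv hF (n + 1) 0 hs Fin.elim0 ?_ hidx (hval.trans hv) P
    refine (plus_to_diag h2 (n + 1)).trans (diag_equiv_card hF (by simp; ring) _ _ hw ?_ r hr ?_)
    · rintro (j | j)
      · simp
      · exact j.elim0
    · rw [hprod, hr2]
      simp [Fintype.prod_sum_type]
  rcases Nat.even_or_odd (n + 1) with he | ho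
  · have hn1 : 2 ≤ n + 1 := by
      obtain ⟨k, hk⟩ := he
      omega
    exact hcase1 1 one_ne_zero (by simp [he.neg_one_pow]) hn1 (val_plus_even hq hF he)
  · have hn4 : 4 ≤ n + 1 := by
      rcases hm' with h | h
      · exact absurd h (Nat.not_even_iff_odd.mpr ho)
      · exact h
    rcases mod_four_cases hq hF with h4 | h4
    · obtain ⟨i, hi⟩ := square_of_one hq h4
      have hi0 : i ≠ 0 := by
        rintro rfl
        simp at hi
      exact hcase1 i hi0 (by rw [ho.neg_one_pow, hi]; ring) (by omega) (val_plus_odd_one hq h4 ho)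
    · refine sylExp_of_formEquiv hF n 2 (by omega) ![1, (-1)] ?_ hidx (hval.trans (val_plus_odd_three hq h4 ho)) P
      refine (plus_to_diag h2 (n + 1)).trans (diag_equiv_card hF (by simp; ring) _ _ hw ?_ 1 one_ne_zero ?_)
      · rintro (j | j)
        · simp
        · fin_cases j <;> simp
      · rw [hprod, ho.neg_one_pow]
        simp [Fintype.prod_sum_type, Fin.prod_univ_two]

theorem omega_minus_exp (hF : Odd (Fintype.card F)) (m : ℕ) (hm : 3 ≤ m) (a b : F)
    (hab : ∀ z₁ z₂ : F, z₁ ^ 2 + a * z₁ * z₂ + b * z₂ ^ 2 = 0 → z₁ = 0 ∧ z₂ = 0)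
    (P : Sylow 2 (Cfsg.Omega F (Cfsg.quadFormMinus m F a b))) :
    ∀ x : (P : Subgroup (Cfsg.Omega F (Cfsg.quadFormMinus m F a b))),
      x ^ 2 ∈ commutator (P : Subgroup (Cfsg.Omega F (Cfsg.quadFormMinus m F a b))) := by
  classical
  have h2 : (2 : F) ≠ 0 := two_ne_zero_of_odd hF
  have hq : 2 ≤ Fintype.card F := Fintype.one_lt_card
  have h4' : (4 : F) ≠ 0 := by
    have : (4 : F) = 2 * 2 := by norm_num
    rw [this]
    exact mul_ne_zero h2 h2
  have hidx : (commutator (Cfsg.isometryGroup F (Cfsg.quadFormMinus m F a b))).index = 4 :=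
    index_of_bundled hF _ (Qminus m F a b) (Qminus_apply m a b) (Qminus_nondeg hab m) (by simp only [Fintype.card_sum, Fintype.card_fin]; omega)
  have hval := val_prod_order hq hF ((m + 1) * m) (Fintype.card F ^ (m + 1) + 1) m (by omega)
  rw [← Qminus_order hab m, ← card_isometryGroup' _ (Qminus m F a b) (Qminus_apply m a b)] at hval
  set δ : F := b - a ^ 2 / 4 with hδ
  have hns : ¬ IsSquare (-δ) := by
    rintro ⟨t, ht⟩
    have := hab (t - a / 2) 1 (by
      rw [hδ] at ht
      field_simp at ht ⊢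
      linear_combination (-1 : F) * ht)
    exact one_ne_zero this.2
  have hδ0 : δ ≠ 0 := by
    intro h0
    apply hns
    rw [h0]
    simp
  have hw : ∀ j : (Fin m ⊕ Fin m) ⊕ Fin 2, (Sum.elim (Sum.elim (fun _ : Fin m => (1 : F)) (fun _ : Fin m => (-1 : F))) ![(1 : F), δ]) j ≠ 0 := by
    rintro ((j | j) | j)
    · simp
    · simp
    · fin_cases j <;> simp [hδ0]
  have hprod : ∏ j, (Sum.elim (Sum.elim (fun _ : Fin m => (1 : F)) (fun _ : Fin m => (-1 : F))) ![(1 : F), δ]) j = (-1) ^ m * δ := by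
    simp [Fintype.prod_sum_type, Fin.prod_univ_two]
  have hd : (-1 : F) ^ m * δ ≠ 0 := mul_ne_zero (pow_ne_zero _ (by simp)) hδ0
  -- the generic branch
  have hgen : padicValNat 2 (Fintype.card F ^ (m + 1) + 1) = 1 →
      ∀ x : (P : Subgroup (Cfsg.Omega F (Cfsg.quadFormMinus m F a b))),
        x ^ 2 ∈ commutator (P : Subgroup (Cfsg.Omega F (Cfsg.quadFormMinus m F a b))) := by
    intro hv
    refine sylExp_of_formEquiv hF m 2 (by omega) ![1, (-1) ^ m * δ] ?_ hidx (hval.trans (val_minus_two hv)) P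
    refine (minus_to_diag h2 m a b).trans (diag_equiv_card hF (by simp; ring) _ _ hw ?_ 1 one_ne_zero ?_)
    · rintro (j | j)
      · simp
      · fin_cases j
        · simp
        · simpa using hd
    · rw [hprod]
      simp [Fintype.prod_sum_type, Fin.prod_univ_two]
  rcases Nat.even_or_odd (m + 1) with he | ho
  · exact hgen (val_add_one_even hq hF he)
  · rcases mod_four_cases hq hF with h4 | h4
    · apply hgen
      rw [val_add_one_odd hq hF ho]
      exact val_add_one_of_one hq h4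
    · -- now the discriminant is a square
      have hme : Even m := by
        rcases Nat.even_or_odd m with h | h
        · exact h
        · exfalso
          obtain ⟨c, hc⟩ := h
          obtain ⟨c', hc'⟩ := ho
          omega
      have hns1 := not_square_of_three (F := F) h4
      have hsq : IsSquare δ := by
        rw [← quadraticChar_one_iff_isSquare hδ0]
        have e1 := quadraticChar_neg_one_iff_not_isSquare.mpr hns
        have e2 := quadraticChar_neg_one_iff_not_isSquare.mpr hns1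
        have e3 : δ = (-1) * (-δ) := by ring
        rw [e3, map_mul, e1, e2]
        simp
      obtain ⟨r, hr⟩ := hsq
      have hr0 : r ≠ 0 := by
        rintro rfl
        exact hδ0 (by simpa using hr)
      refine sylExp_of_formEquiv hF (m + 1) 0 (by omega) Fin.elim0 ?_ hidx
        (hval.trans (val_minus_odd_three hq h4 ho)) P
      refine (minus_to_diag h2 m a b).trans (diag_equiv_card hF (by simp; ring) _ _ hw ?_ r hr0 ?_)
      · rintro (j | j)
        · simp
        · exact j.elim0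
      · rw [hprod, hme.neg_one_pow, hr]
        simp [Fintype.prod_sum_type]
        ring

end Targets

end Cfsg.Agent.Lib.AltChar
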