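import Mathlib
import Cfsg.Agent.Lib.AltChar.NormalRank

/-!
# Derived series of abstract wreath products and a recursive model of Sylow subgroups of `Sym(n)`.
-/

set_option autoImplicit false
set_option linter.unusedSectionVars false

open Equiv
open scoped commutatorElement

namespace Cfsg.Agent.Lib.AltChar

section DS

variable {G G' : Type*} [Group G] [Group G']

/-- The derived series of a subgroup, inside the ambient group. -/
def dS (T : Subgroup G) : ℕ → Subgroup G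
  | 0 => T
  | l + 1 => ⁅dS T l, dS T l⁆

@[simp] theorem dS_zero (T : Subgroup G) : dS T 0 = T := rfl

theorem dS_succ (T : Subgroup G) (l : ℕ) : dS T (l + 1) = ⁅dS T l, dS T l⁆ := rfl

theorem dS_mono {T T' : Subgroup G} (h : T ≤ T') (l : ℕ) : dS T l ≤ dS T' l := by
  induction l with
  | zero => exact h
  | succ l ih => exact Subgroup.commutator_mono ih ih

theorem dS_map (φ : G →* G') (T : Subgroup G) (l : ℕ) : dS (T.map φ) l = (dS T l).map φ := by
  induction l with
  | zero => rfl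
  | succ l ih => rw [dS_succ, dS_succ, ih, Subgroup.map_commutator]

theorem derivedSeries_map_subtype (T : Subgroup G) (l : ℕ) :
    (derivedSeries T l).map T.subtype = dS T l := by
  induction l with
  | zero =>
    rw [derivedSeries_zero, dS_zero, ← MonoidHom.range_eq_map, Subgroup.range_subtype]
  | succ l ih => rw [derivedSeries_succ, Subgroup.map_commutator, ih, dS_succ]

theorem derivedSeries_eq_bot_iff (T : Subgroup G) (l : ℕ) :
    derivedSeries T l = ⊥ ↔ dS T l = ⊥ := by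
  rw [← derivedSeries_map_subtype, Subgroup.map_eq_bot_iff_of_injective _ T.subtype_injective]

end DS

section SeqDef

/-- A sequence of permutations in the derived series moving a point off a growing set. -/
inductive Seq {X : Type*} (T : Subgroup (Perm X)) (i₀ : X) : ℕ → Set X → Prop
  | zero {S : Set X} (h : i₀ ∈ S) : Seq T i₀ 0 S
  | succ {a : ℕ} {S' S : Set X} {σ : Perm X} (h : Seq T i₀ a S') (hσ : σ ∈ dS T a)
      (hσi : σ⁻¹ i₀ ∉ S') (h1 : S' ⊆ S) (h2 : ∀ j ∈ S', σ j ∈ S) : Seq T i₀ (a + 1) S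

end SeqDef

section Wr

variable {Γ R : Type*} [Group Γ] [Group R] {n : ℕ}
  {D : (Fin n → R) →* Γ} {Pm : Perm (Fin n) →* Γ}

/-- Base elements in the derived series. -/
theorem seq_lb (h : WrData D Pm) (R₀ : Subgroup R) (T : Subgroup (Perm (Fin n))) {i₀ : Fin n}
    {a : ℕ} {S : Set (Fin n)} (hS : Seq T i₀ a S) {x : R} (hx : x ∈ R₀) :
    ∃ f : Fin n → R, f i₀ = x ∧ (∀ j, j ∉ S → f j = 1) ∧ (∀ j, f j ∈ R₀) ∧
      D f ∈ dS (wrSub h R₀ T) a := by
  classical
  induction hS with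
  | @zero S hi =>
    refine ⟨Pi.mulSingle i₀ x, by simp, fun j hj => ?_, mulSingle_mem i₀ hx, ?_⟩
    · rw [Pi.mulSingle_eq_of_ne]
      rintro rfl
      exact hj hi
    · exact D_mem_wrSub h (mulSingle_mem i₀ hx)
  | @succ a S' S σ _ hσ hσi h1 h2 ih =>
    obtain ⟨f', hf1, hf2, hf3, hf4⟩ := ih
    refine ⟨fun j => f' j * (f' (σ⁻¹ j))⁻¹, ?_, fun j hj => ?_, fun j => ?_, ?_⟩
    · simp only
      rw [hf2 _ hσi, inv_one, mul_one, hf1]
    · simp only
      rw [hf2 j (fun hc => hj (h1 hc)), one_mul, hf2 (σ⁻¹ j) (fun hc => hj ?_), inv_one]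
      have := h2 _ hc
      simpa using this
    · exact mul_mem (hf3 j) (inv_mem (hf3 _))
    · have hP : Pm σ ∈ dS (wrSub h R₀ T) a := by
        have h3 : Pm σ ∈ (dS T a).map Pm := Subgroup.mem_map_of_mem _ hσ
        rw [← dS_map] at h3
        refine dS_mono ?_ a h3
        rintro _ ⟨τ, hτ, rfl⟩
        exact Pm_mem_wrSub h hτ
      have h4 := Subgroup.commutator_mem_commutator hf4 hP
      rw [commutatorElement_def] at h4
      have h5 := h.conj' σ f'⁻¹
      have h6 : D f' * Pm σ * (D f')⁻¹ * (Pm σ)⁻¹ = D fun j => f' j * (f' (σ⁻¹ j))⁻¹ := by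
        have h7 : Pm σ * (D f')⁻¹ * (Pm σ)⁻¹ = D fun j => (f' (σ⁻¹ j))⁻¹ := by
          rw [← map_inv]
          simpa using h5
        calc D f' * Pm σ * (D f')⁻¹ * (Pm σ)⁻¹ = D f' * (Pm σ * (D f')⁻¹ * (Pm σ)⁻¹) := by group
          _ = _ := by rw [h7, ← map_mul]; rfl
      rw [← h6]
      exact h4

/-- The lower bound. -/
theorem seq_ne_bot (h : WrData D Pm) (R₀ : Subgroup R) (T : Subgroup (Perm (Fin n))) {i₀ : Fin n}
    {a : ℕ} {S : Set (Fin n)} (hS : Seq T i₀ a S) {x y : R} (hx : x ∈ R₀) (hy : y ∈ R₀)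
    (hxy : x * y ≠ y * x) : dS (wrSub h R₀ T) (a + 1) ≠ ⊥ := by
  obtain ⟨f, hf1, -, -, hf4⟩ := seq_lb h R₀ T hS hx
  obtain ⟨g, hg1, -, -, hg4⟩ := seq_lb h R₀ T hS hy
  intro hbot
  have h1 := Subgroup.commutator_mem_commutator hf4 hg4
  rw [← dS_succ, hbot, Subgroup.mem_bot, commutatorElement_def, ← map_inv, ← map_inv, ← map_mul,
    ← map_mul, ← map_mul, ← map_one D] at h1
  have h2 := congrFun (h.D_injective h1) i₀
  simp only [Pi.mul_apply, Pi.inv_apply, Pi.one_apply, hf1, hg1] at h2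
  apply hxy
  have h3 : x * y * x⁻¹ * y⁻¹ * (y * x) = y * x := by rw [h2, one_mul]
  simpa [mul_assoc] using h3

theorem seq_ne_bot' (h : WrData D Pm) (R₀ : Subgroup R) (T : Subgroup (Perm (Fin n))) {i₀ : Fin n}
    {a : ℕ} {S : Set (Fin n)} (hS : Seq T i₀ a S) {x : R} (hx : x ∈ R₀) (hx1 : x ≠ 1) :
    dS (wrSub h R₀ T) a ≠ ⊥ := by
  obtain ⟨f, hf1, -, -, hf4⟩ := seq_lb h R₀ T hS hx
  intro hbot
  rw [hbot, Subgroup.mem_bot, ← map_one D] at hf4
  have h2 := congrFun (h.D_injective hf4) i₀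
  rw [hf1] at h2
  exact hx1 h2

/-- Perm parts of products. -/
theorem form_mul (h : WrData D Pm) {R₀ : Subgroup R} {x y : Fin n → R} (hx : ∀ i, x i ∈ R₀)
    (hy : ∀ i, y i ∈ R₀) (σ τ : Perm (Fin n)) :
    ∃ z : Fin n → R, (∀ i, z i ∈ R₀) ∧ (D x * Pm σ) * (D y * Pm τ) = D z * Pm (σ * τ) := by
  refine ⟨x * fun i => y (σ⁻¹ i), fun i => mul_mem (hx i) (hy _), ?_⟩
  rw [map_mul, map_mul, mul_assoc, mul_assoc, ← mul_assoc (Pm σ), h.conj, mul_assoc]

theorem form_inv (h : WrData D Pm) {R₀ : Subgroup R} {x : Fin n → R} (hx : ∀ i, x i ∈ R₀)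
    (σ : Perm (Fin n)) :
    ∃ z : Fin n → R, (∀ i, z i ∈ R₀) ∧ (D x * Pm σ)⁻¹ = D z * Pm σ⁻¹ := by
  refine ⟨fun i => (x (σ i))⁻¹, fun i => inv_mem (hx _), ?_⟩
  have h1 : Pm σ⁻¹ * D x⁻¹ = D (fun i => (x (σ i))⁻¹) * Pm σ⁻¹ := by
    have := h.conj σ⁻¹ x⁻¹
    simpa using this
  rw [mul_inv_rev, ← map_inv, ← map_inv, h1]

theorem dS_wr_le (h : WrData D Pm) (R₀ : Subgroup R) (T : Subgroup (Perm (Fin n))) (l : ℕ) :
    dS (wrSub h R₀ T) l ≤ wrSub h R₀ (dS T l) := by
  induction l with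
  | zero => exact le_rfl
  | succ l ih =>
    rw [dS_succ]
    refine le_trans (Subgroup.commutator_mono ih ih) ?_
    rw [Subgroup.commutator_le]
    rintro _ ⟨x, hx, σ, hσ, rfl⟩ _ ⟨y, hy, τ, hτ, rfl⟩
    rw [commutatorElement_def]
    obtain ⟨z₁, hz₁, e₁⟩ := form_mul h hx hy σ τ
    obtain ⟨z₂, hz₂, e₂⟩ := form_inv h hx σ
    obtain ⟨z₃, hz₃, e₃⟩ := form_inv h hy τ
    obtain ⟨z₄, hz₄, e₄⟩ := form_mul h hz₁ hz₂ (σ * τ) σ⁻¹
    obtain ⟨z₅, hz₅, e₅⟩ := form_mul h hz₄ hz₃ (σ * τ * σ⁻¹) τ⁻¹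
    refine ⟨z₅, hz₅, σ * τ * σ⁻¹ * τ⁻¹, ?_, ?_⟩
    · have := Subgroup.commutator_mem_commutator hσ hτ
      rw [commutatorElement_def] at this
      exact this
    · rw [e₁, e₂, e₄, e₃, e₅]

/-- The upper bound. -/
theorem dS_wr_bot (h : WrData D Pm) (R₀ : Subgroup R) (T : Subgroup (Perm (Fin n))) {a d : ℕ}
    (hT : dS T a = ⊥) (hR : dS R₀ d = ⊥) : dS (wrSub h R₀ T) (a + d) = ⊥ := by
  have key : ∀ j, ∀ g ∈ dS (wrSub h R₀ T) (a + j), ∃ f : Fin n → R, (∀ i, f i ∈ dS R₀ j) ∧ g = D f := by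
    intro j
    induction j with
    | zero =>
      intro g hg
      have h1 := dS_wr_le h R₀ T a hg
      rw [hT] at h1
      obtain ⟨x, hx, σ, hσ, rfl⟩ := h1
      rw [Subgroup.mem_bot] at hσ
      subst hσ
      exact ⟨x, hx, by simp⟩
    | succ j ih =>
      intro g hg
      -- the image of the pi subgroup
      let B : Subgroup Γ := (Subgroup.pi Set.univ fun _ : Fin n => dS R₀ j).map D
      let B' : Subgroup Γ := (Subgroup.pi Set.univ fun _ : Fin n => dS R₀ (j + 1)).map D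
      have h1 : dS (wrSub h R₀ T) (a + j) ≤ B := by
        intro u hu
        obtain ⟨f, hf, rfl⟩ := ih u hu
        exact ⟨f, fun i _ => hf i, rfl⟩
      have h2 : ⁅B, B⁆ ≤ B' := by
        rw [Subgroup.commutator_le]
        rintro _ ⟨f, hf, rfl⟩ _ ⟨f', hf', rfl⟩
        refine ⟨fun i => ⁅f i, f' i⁆, fun i _ => ?_, ?_⟩
        · exact Subgroup.commutator_mem_commutator (hf i trivial) (hf' i trivial)
        · simp only [commutatorElement_def, ← map_inv, ← map_mul]
          rfl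
      have h3 : g ∈ B' := h2 (Subgroup.commutator_mono h1 h1 (by simpa [dS_succ, ← add_assoc] using hg))
      obtain ⟨f, hf, rfl⟩ := h3
      exact ⟨f, fun i => hf i trivial, rfl⟩
  rw [eq_bot_iff]
  intro g hg
  obtain ⟨f, hf, rfl⟩ := key d g hg
  have : f = 1 := funext fun i => by
    have := hf i
    rwa [hR, Subgroup.mem_bot] at this
  rw [this, map_one]
  exact one_mem _

end Wr

section Model

variable (p : ℕ) [hp : Fact p.Prime] (m : ℕ)

/-- The element `(y, c) ↦ (t y, c + f y)`. -/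
def mkQ (t : Perm (Fin m)) (f : Fin m → ZMod p) : Perm (Fin m × ZMod p) :=
  Equiv.prodShear t (fun y => Equiv.addRight (f y))

@[simp] theorem mkQ_apply (t : Perm (Fin m)) (f : Fin m → ZMod p) (y : Fin m) (c : ZMod p) :
    mkQ p m t f (y, c) = (t y, c + f y) := rfl

/-- The base. -/
def qD : (Fin m → Multiplicative (ZMod p)) →* Perm (Fin m × ZMod p) where
  toFun x := mkQ p m 1 fun y => Multiplicative.toAdd (x y)
  map_one' := by
    ext ⟨y, c⟩ <;> simp
  map_mul' x y := by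
    ext ⟨k, c⟩
    · simp
    · simp only [mkQ_apply, Pi.mul_apply, Perm.coe_mul, Function.comp_apply, toAdd_mul, Perm.one_apply]
      ring_nf

/-- The diagonal copy. -/
def qPm : Perm (Fin m) →* Perm (Fin m × ZMod p) where
  toFun t := mkQ p m t fun _ => 0
  map_one' := by
    ext ⟨y, c⟩ <;> simp
  map_mul' t t' := by
    ext ⟨k, c⟩ <;> simp

@[simp] theorem qD_apply (x : Fin m → Multiplicative (ZMod p)) (y : Fin m) (c : ZMod p) :
    qD p m x (y, c) = (y, c + Multiplicative.toAdd (x y)) := rfl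

@[simp] theorem qPm_apply (t : Perm (Fin m)) (y : Fin m) (c : ZMod p) :
    qPm p m t (y, c) = (t y, c) := by
  show mkQ p m t (fun _ => 0) (y, c) = _
  simp

theorem qWrData : WrData (qD p m) (qPm p m) where
  conj σ x := by
    ext ⟨y, c⟩ <;> simp
  uniq x y σ τ h := by
    have h1 : ∀ k, (σ k, Multiplicative.toAdd (x (σ k))) = (τ k, Multiplicative.toAdd (y (τ k))) := by
      intro k
      have := congrArg (fun g : Perm (Fin m × ZMod p) => g (k, 0)) h
      simpa using this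
    have hσ : σ = τ := Equiv.ext fun k => congrArg Prod.fst (h1 k)
    subst hσ
    refine ⟨funext fun i => ?_, rfl⟩
    obtain ⟨k, rfl⟩ := σ.surjective i
    exact Multiplicative.toAdd.injective (congrArg Prod.snd (h1 k))

end Model

section Transfer

variable {X Y : Type*}

theorem Seq.lift {Z : Type*} {T : Subgroup (Perm X)} {T' : Subgroup (Perm Y)} (φ : Perm X →* Perm Y)
    (hφ : T.map φ ≤ T') (ι : X → Y) (hι : Function.Injective ι)
    (hcomm : ∀ σ x, φ σ (ι x) = ι (σ x)) {i₀ : X} {a : ℕ} {S : Set X} (hS : Seq T i₀ a S) :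
    Seq T' (ι i₀) a (ι '' S) := by
  induction hS with
  | @zero S hi => exact Seq.zero ⟨i₀, hi, rfl⟩
  | @succ a S' S σ _ hσ hσi h1 h2 ih =>
    refine Seq.succ (σ := φ σ) ih ?_ ?_ (Set.image_mono h1) ?_
    · have h3 : φ σ ∈ (dS T a).map φ := Subgroup.mem_map_of_mem _ hσ
      rw [← dS_map] at h3
      exact dS_mono hφ a h3
    · rintro ⟨y, hy, hye⟩
      apply hσi
      have h3 : (φ σ)⁻¹ (ι i₀) = ι (σ⁻¹ i₀) := by
        rw [← map_inv, hcomm]
      rw [h3] at hye
      rwa [← hι hye]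
    · rintro _ ⟨y, hy, rfl⟩
      exact ⟨σ y, h2 y hy, (hcomm σ y).symm⟩

end Transfer

section Main

/-- The recursive model of a Sylow subgroup of `Sym(n)`. -/
theorem exists_T (p : ℕ) [hp : Fact p.Prime] : ∀ n : ℕ, ∃ T : Subgroup (Perm (Fin n)),
    Nat.card T = p ^ padicValNat p n.factorial ∧ dS T (Nat.log p n) = ⊥ ∧
      (1 ≤ n → ∃ (i₀ : Fin n) (S : Set (Fin n)), Seq T i₀ (Nat.log p n) S) := by
  intro n
  have hpp : p.Prime := hp.out
  induction n using Nat.strong_induction_on with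
  | _ n ih =>
    by_cases hnp : n < p
    · refine ⟨⊥, ?_, ?_, ?_⟩
      · rw [padicValNat.eq_zero_of_not_dvd]
        · simp
        · rw [hpp.dvd_factorial]
          omega
      · rw [Nat.log_of_lt hnp]
        rfl
      · intro h1
        rw [Nat.log_of_lt hnp]
        exact ⟨⟨0, h1⟩, {⟨0, h1⟩}, Seq.zero rfl⟩
    · have hpn : p ≤ n := by omega
      have hm1 : 1 ≤ n / p := Nat.div_pos hpn hpp.pos
      have hm2 : n / p < n := Nat.div_lt_self (by have := hpp.pos; omega) hpp.one_lt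
      have hlog0 : Nat.log p n = Nat.log p (n / p) + 1 := Nat.log_of_one_lt_of_le hpp.one_lt hpn
      obtain ⟨m, hm⟩ : ∃ m, m = n / p := ⟨_, rfl⟩
      rw [← hm] at hm1 hm2 hlog0
      obtain ⟨T₀, hc, hd, hs⟩ := ih m hm2
      obtain ⟨a, ha⟩ : ∃ a, a = Nat.log p m := ⟨_, rfl⟩
      rw [← ha] at hlog0 hd hs
      rw [hlog0]
      obtain ⟨i₀, S, hS⟩ := hs hm1
      have hW := qWrData p m
      let T₁ : Subgroup (Perm (Fin m × ZMod p)) := wrSub hW ⊤ T₀
      have hcomm₁ : dS (⊤ : Subgroup (Multiplicative (ZMod p))) 1 = ⊥ := by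
        rw [dS_succ, dS_zero, Subgroup.commutator_eq_bot_iff_le_centralizer]
        intro x _
        rw [Subgroup.mem_centralizer_iff]
        intro y _
        exact mul_comm _ _
      have hd₁ : dS T₁ (a + 1) = ⊥ := dS_wr_bot hW ⊤ T₀ hd hcomm₁
      have hcard₁ : Nat.card T₁ = p ^ padicValNat p n.factorial := by
        rw [card_wrSub, hc, Subgroup.card_top, Nat.card_eq_fintype_card, Fintype.card_multiplicative,
          ZMod.card, ← pow_add, add_comm]
        have h5 : padicValNat p m.factorial + m = padicValNat p n.factorial := by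
          rw [hm, ← padicValNat_factorial_mul, padicValNat_mul_div_factorial]
        rw [h5]
      -- the sequence on `T₁`
      let ι₀ : Fin m → Fin m × ZMod p := fun y => (y, 0)
      have hι₀ : Function.Injective ι₀ := fun y y' h => congrArg Prod.fst h
      have hS₁ : Seq T₁ (ι₀ i₀) a (ι₀ '' S) := by
        refine Seq.lift (Z := Unit) (qPm p m) ?_ ι₀ hι₀ ?_ hS
        · rintro _ ⟨τ, hτ, rfl⟩
          exact Pm_mem_wrSub hW hτ
        · intro σ x
          simp [ι₀]
      obtain ⟨f, hf1, -, -, hf4⟩ := seq_lb hW ⊤ T₀ hS (x := Multiplicative.ofAdd 1) (Subgroup.mem_top _)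
      have hS₂ : Seq T₁ (ι₀ i₀) (a + 1) (ι₀ '' S ∪ qD p m f '' (ι₀ '' S)) := by
        refine Seq.succ hS₁ hf4 ?_ Set.subset_union_left ?_
        · rintro ⟨y, hy, hye⟩
          have h1 : qD p m f (ι₀ y) = ι₀ i₀ := by
            rw [hye]
            simp
          have h2 := congrArg Prod.snd h1
          have h3 := congrArg Prod.fst h1
          simp only [ι₀, qD_apply] at h2 h3
          subst h3
          rw [hf1] at h2
          simp at h2
        · intro j hj
          exact Or.inr ⟨j, hj, rfl⟩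
      -- the embedding
      have hcard : Fintype.card (Fin m × ZMod p) ≤ Fintype.card (Fin n) := by
        rw [Fintype.card_prod, ZMod.card, Fintype.card_fin, Fintype.card_fin, hm]
        exact Nat.div_mul_le_self n p
      obtain ⟨ι⟩ := Function.Embedding.nonempty_of_card_le hcard
      let φ := Perm.viaEmbeddingHom ι
      have hφ : Function.Injective φ := Perm.viaEmbeddingHom_injective ι
      refine ⟨T₁.map φ, ?_, ?_, fun _ => ⟨ι (ι₀ i₀), ι '' (ι₀ '' S ∪ qD p m f '' (ι₀ '' S)), ?_⟩⟩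
      · rw [Nat.card_congr (Subgroup.equivMapOfInjective _ φ hφ).symm.toEquiv, hcard₁]
      · rw [dS_map, hd₁, Subgroup.map_bot]
      · refine Seq.lift (Z := Unit) φ le_rfl ι ι.injective ?_ hS₂
        intro σ x
        exact Perm.viaEmbedding_apply σ ι x

end Main

end Cfsg.Agent.Lib.AltChar
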