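import Mathlib
import Cfsg.Agent.Lib.AltChar.SL2Exp
import Cfsg.Agent.Lib.AltChar.WrDerived

/-!
# A Sylow `2`-subgroup of `SL₂(q)`, `q` odd, has derived length at most `2`.
-/

set_option autoImplicit false
set_option linter.unusedSimpArgs false
set_option linter.unusedVariables false

namespace Cfsg.Agent.Lib.AltChar

open Matrix Cfsg.Agent.Lib.KS2.SL2
open scoped MatrixGroups commutatorElement

variable {F : Type*} [Field F]

theorem dic_sylow_der [Finite F] {T : Subgroup SL(2, F)} {w : SL(2, F)} (hD : IsDic T w)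
    (hcyc : IsCyclic T) (h4 : 4 ∣ Nat.card T) (hidx : ¬ 4 ∣ T.index) :
    ∃ S₀ : Sylow 2 SL(2, F), dS (S₀ : Subgroup SL(2, F)) 2 = ⊥ := by
  classical
  have hf2 : Fact (Nat.Prime 2) := ⟨Nat.prime_two⟩
  obtain ⟨Q₀⟩ : Nonempty (Sylow 2 T) := inferInstance
  set Q := (Q₀ : Subgroup T).map T.subtype with hQ
  have hQcard : Nat.card Q = Nat.card Q₀ :=
    (Nat.card_congr (Subgroup.equivMapOfInjective (Q₀ : Subgroup T) T.subtype T.subtype_injective).toEquiv).symm
  have hQmul : Nat.card Q₀ * (Q₀ : Subgroup T).index = Nat.card T := Subgroup.card_mul_index _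
  have hQodd : ¬ 2 ∣ (Q₀ : Subgroup T).index := Q₀.not_dvd_index
  have hQ4 : 4 ∣ Nat.card Q := by
    rw [hQcard]
    have hco : Nat.Coprime 4 (Q₀ : Subgroup T).index :=
      (Nat.Coprime.pow_left 2 ((Nat.Prime.coprime_iff_not_dvd Nat.prime_two).mpr hQodd))
    rw [← hQmul] at h4
    exact hco.dvd_of_dvd_mul_right h4
  have hData : QData T w Q := by
    refine ⟨hD, Subgroup.map_subtype_le _, Q₀.isPGroup'.map _, ?_⟩
    intro t ht k htk
    have hnorm : Subgroup.zpowers (⟨t, ht⟩ : T) ≤ Subgroup.normalizer ((Q₀ : Subgroup T) : Set T) := by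
      intro y _
      rw [Subgroup.mem_normalizer_iff]
      intro z
      have : y * z * y⁻¹ = z := by
        apply Subtype.ext
        have := hD.comm y.1 y.2 z.1 z.2
        simp only [Subgroup.coe_mul, Subgroup.coe_inv]
        rw [this, mul_inv_cancel_right]
      rw [this]
    have hp : IsPGroup 2 (Subgroup.zpowers (⟨t, ht⟩ : T)) := by
      rintro ⟨_, n, rfl⟩
      refine ⟨k, ?_⟩
      apply Subtype.ext
      show ((⟨t, ht⟩ : T) ^ n) ^ (2 ^ k) = 1
      have h1 : (⟨t, ht⟩ : T) ^ (2 ^ k) = 1 := Subtype.ext htk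
      rw [← zpow_natCast, ← _root_.zpow_mul, mul_comm, _root_.zpow_mul, zpow_natCast, h1, _root_.one_zpow]
    have hsup := IsPGroup.to_sup_of_normal_left' Q₀.isPGroup' hp hnorm
    have hmax := Q₀.is_maximal' hsup le_sup_left
    have hmem : (⟨t, ht⟩ : T) ∈ (Q₀ : Subgroup T) := by
      rw [← hmax]
      exact Subgroup.mem_sup_right (Subgroup.mem_zpowers _)
    exact ⟨_, hmem, rfl⟩
  have hQcyc : IsCyclic Q := by
    have : IsCyclic (Q₀ : Subgroup T) := inferInstance
    exact (Subgroup.equivMapOfInjective (Q₀ : Subgroup T) T.subtype T.subtype_injective).isCyclic.mp this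
  -- `S` is Sylow
  have hSi : ¬ 2 ∣ hData.S.index := by
    intro hdvd
    apply hidx
    have h1 := Subgroup.card_mul_index hData.S
    have h3 := Subgroup.card_mul_index T
    rw [hData.card_S, hQcard] at h1
    rw [← hQmul, ← h1] at h3
    have hpos : 0 < Nat.card Q₀ := Nat.card_pos
    have h5 : (Q₀ : Subgroup T).index * T.index = 2 * hData.S.index := by
      apply Nat.eq_of_mul_eq_mul_left hpos
      calc Nat.card Q₀ * ((Q₀ : Subgroup T).index * T.index) = Nat.card Q₀ * (Q₀ : Subgroup T).index * T.index := by ring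
        _ = 2 * Nat.card Q₀ * hData.S.index := h3
        _ = _ := by ring
    have h6 : 4 ∣ (Q₀ : Subgroup T).index * T.index := by
      rw [h5]
      obtain ⟨m, hm⟩ := hdvd
      exact ⟨m, by rw [hm]; ring⟩
    have hco : Nat.Coprime 4 (Q₀ : Subgroup T).index :=
      (Nat.Coprime.pow_left 2 ((Nat.Prime.coprime_iff_not_dvd Nat.prime_two).mpr hQodd))
    exact hco.dvd_of_dvd_mul_left h6
  refine ⟨hData.isPGroup_S.toSylow hSi, ?_⟩
  change dS hData.S 2 = ⊥
  have hwT : ∀ s ∈ T, w * s * w⁻¹ ∈ T := fun s hs => by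
    rw [hD.wt s hs]
    exact inv_mem hs
  have hform : ∀ g ∈ hData.S, g ∈ T ∨ ∃ t ∈ T, g = w * t := by
    intro g hg
    rcases hg with hg | hg
    · exact Or.inl (hData.le hg)
    · exact Or.inr ⟨w⁻¹ * g, hData.le hg, by group⟩
  have hcomm : ∀ a ∈ hData.S, ∀ b ∈ hData.S, a * b * a⁻¹ * b⁻¹ ∈ T := by
    intro a ha b hb
    rcases hform a ha with ha' | ⟨t₁, ht₁, rfl⟩ <;> rcases hform b hb with hb' | ⟨t₂, ht₂, rfl⟩
    · exact mul_mem (mul_mem (mul_mem ha' hb') (inv_mem ha')) (inv_mem hb')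
    · have e : a * (w * t₂) * a⁻¹ * (w * t₂)⁻¹ = a * (w * (t₂ * a⁻¹ * t₂⁻¹) * w⁻¹) := by group
      rw [e]
      exact mul_mem ha' (hwT _ (mul_mem (mul_mem ht₂ (inv_mem ha')) (inv_mem ht₂)))
    · have e : (w * t₁) * b * (w * t₁)⁻¹ * b⁻¹ = (w * (t₁ * b * t₁⁻¹) * w⁻¹) * b⁻¹ := by group
      rw [e]
      exact mul_mem (hwT _ (mul_mem (mul_mem ht₁ hb') (inv_mem ht₁))) (inv_mem hb')
    · have e : (w * t₁) * (w * t₂) * (w * t₁)⁻¹ * (w * t₂)⁻¹ =
          (w * t₁ * w⁻¹) * (w * (w * (t₂ * t₁⁻¹) * w⁻¹) * w⁻¹) * (w * t₂⁻¹ * w⁻¹) := by group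
      rw [e]
      exact mul_mem (mul_mem (hwT _ ht₁) (hwT _ (hwT _ (mul_mem ht₂ (inv_mem ht₁)))))
        (hwT _ (inv_mem ht₂))
  have hle : ⁅hData.S, hData.S⁆ ≤ Q := by
    rw [Subgroup.commutator_le]
    intro a ha b hb
    refine hData.mem_of_mem_S_T ?_ ?_
    · rw [commutatorElement_def]
      exact mul_mem (mul_mem (mul_mem ha hb) (inv_mem ha)) (inv_mem hb)
    · rw [commutatorElement_def]
      exact hcomm a ha b hb
  rw [eq_bot_iff, dS_succ, dS_succ, dS_zero]
  refine le_trans (Subgroup.commutator_mono hle hle) ?_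
  rw [Subgroup.commutator_le]
  intro a ha b hb
  rw [Subgroup.mem_bot, commutatorElement_def, hD.comm a (hData.le ha) b (hData.le hb)]
  group

theorem sl2_sylow_der [Fintype F] (hodd : Odd (Fintype.card F)) :
    ∃ S₀ : Sylow 2 SL(2, F), dS (S₀ : Subgroup SL(2, F)) 2 = ⊥ := by
  have h2 := two_ne_zero_of_odd hodd
  set q := Fintype.card F with hq
  have hq2 : 2 ≤ q := Fintype.one_lt_card
  have hcardG : Nat.card SL(2, F) = q * (q - 1) * (q + 1) := by
    rw [card_SL2]
    have key : ∀ q : ℕ, 2 ≤ q → q * (q ^ 2 - 1) = q * (q - 1) * (q + 1) := by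
      intro q hq
      obtain ⟨k, rfl⟩ : ∃ k, q = k + 1 := ⟨q - 1, by omega⟩
      simp only [Nat.add_sub_cancel]
      have : (k + 1) ^ 2 - 1 = k * (k + 1 + 1) := by
        have : (k + 1) ^ 2 = k * (k + 1 + 1) + 1 := by ring
        omega
      rw [this]; ring
    exact key q hq2
  obtain ⟨k, hk⟩ := hodd
  by_cases h14 : q % 4 = 1
  · -- split torus
    have hc := card_dtor (F := F)
    have hidx : (dtor F).index = q * (q + 1) := by
      have h1 := Subgroup.card_mul_index (dtor F)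
      rw [hc, hcardG] at h1
      have : (q - 1) * (dtor F).index = (q - 1) * (q * (q + 1)) := by
        rw [h1]; ring
      exact Nat.eq_of_mul_eq_mul_left (by omega) this
    have hni : ¬ 4 ∣ (dtor F).index := by
      rw [hidx]
      intro hd
      have h5 : (q * (q + 1)) % 4 = 0 := Nat.mod_eq_zero_of_dvd hd
      rw [Nat.mul_mod, Nat.add_mod, h14] at h5
      norm_num at h5
    exact dic_sylow_der (isDic_dtor h2) isCyclic_dtor (by rw [hc]; omega) hni
  · have h2r : ringChar F ≠ 2 := by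
      intro h
      have := FiniteField.even_card_of_char_two h
      omega
    have h34 : q % 4 = 3 := by omega
    obtain ⟨a, r, s, ha, hrs, hf, hD⟩ := exists_nonsplit (F := F) h2r
    have hc := card_torus 0 (-a) hf
    have hidx : (torus 0 (-a)).index = q * (q - 1) := by
      have h1 := Subgroup.card_mul_index (torus 0 (-a))
      rw [hc, hcardG] at h1
      have : (q + 1) * (torus 0 (-a)).index = (q + 1) * (q * (q - 1)) := by
        rw [h1]; ring
      exact Nat.eq_of_mul_eq_mul_left (by omega) this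
    have hni : ¬ 4 ∣ (torus 0 (-a)).index := by
      rw [hidx]
      intro hd
      obtain ⟨m, hm⟩ : ∃ m, q = 4 * m + 3 := ⟨q / 4, by omega⟩
      have h5 : q * (q - 1) = 4 * (4 * m * m + 5 * m + 1) + 2 := by
        rw [hm, show 4 * m + 3 - 1 = 4 * m + 2 by omega]; ring
      rw [h5] at hd
      omega
    exact dic_sylow_der hD (torus_isCyclic 0 (-a) hf) (by rw [hc]; omega) hni

end Cfsg.Agent.Lib.AltChar
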