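import Mathlib
import Cfsg.Agent.Lib.AltChar.SylowExp

/-!
# Sylow `2`-subgroups of `Sym(2^j)`: involutions generate, and any two points are swapped.
-/

set_option autoImplicit false
set_option linter.unusedSectionVars false

open Equiv

namespace Cfsg.Agent.Lib.AltChar

/-- Every two points are swapped by an involution, and involutions generate. -/
def SwapGood {X : Type} (T : Subgroup (Perm X)) : Prop :=
  (∀ i k : X, i ≠ k → ∃ s ∈ T, s ^ 2 = 1 ∧ s i = k ∧ s k = i) ∧
    T ≤ Subgroup.closure {s | s ∈ T ∧ s ^ 2 = 1}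

section Step

variable {Y : Type} [Fintype Y] [DecidableEq Y]

theorem zmod_two_add_self (a : ZMod 2) : a + a = 0 := by
  revert a
  decide

theorem mkP_two_sq_one (f : Y → ZMod 2) : mkP 2 (1 : Perm Y) f ^ 2 = 1 := mkP_one_pow_p 2 f

theorem liftP_mem_closure {T : Subgroup (Perm Y)} (hT : T ≤ Subgroup.closure {s | s ∈ T ∧ s ^ 2 = 1})
    {t : Perm Y} (ht : t ∈ T) :
    liftP 2 t ∈ Subgroup.closure {s | s ∈ wr 2 T ∧ s ^ 2 = 1} := by
  have h1 : (Subgroup.closure {s | s ∈ T ∧ s ^ 2 = 1}).map (liftP 2) ≤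
      Subgroup.closure {s | s ∈ wr 2 T ∧ s ^ 2 = 1} := by
    rw [MonoidHom.map_closure]
    refine Subgroup.closure_mono ?_
    rintro _ ⟨x, hx, rfl⟩
    refine ⟨?_, ?_⟩
    · rw [liftP_apply]
      exact mkP_mem_wr 2 hx.1 _
    · rw [← map_pow, hx.2, map_one]
  exact h1 ⟨t, hT ht, rfl⟩

theorem wr_swapGood {T : Subgroup (Perm Y)} (h : SwapGood T) : SwapGood (wr 2 T) := by
  classical
  obtain ⟨h1, h2⟩ := h
  constructor
  · rintro ⟨y, c⟩ ⟨y', c'⟩ hne
    by_cases hy : y = y'
    · subst hy
      have hc : c ≠ c' := fun hc => hne (by rw [hc])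
      have key : ∀ a b : ZMod 2, a ≠ b → a + 1 = b := by decide
      have hc' : c + 1 = c' := key c c' hc
      have hc'' : c' + 1 = c := by
        rw [← hc', add_assoc, zmod_two_add_self, add_zero]
      refine ⟨mkP 2 1 (Pi.single y 1), mkP_mem_wr 2 (one_mem _) _, mkP_two_sq_one _, ?_, ?_⟩
      · simp [hc']
      · simp [hc'']
    · obtain ⟨s, hs, hs2, hsy, hsy'⟩ := h1 y y' hy
      let f : Y → ZMod 2 := fun z => if z = y ∨ z = y' then c + c' else 0
      have hf : ∀ z, f (s z) = f z := by
        intro z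
        simp only [f]
        have e1 : s z = y ↔ z = y' := by
          constructor
          · intro hz
            apply s.injective
            rw [hz, hsy']
          · rintro rfl
            exact hsy'
        have e2 : s z = y' ↔ z = y := by
          constructor
          · intro hz
            apply s.injective
            rw [hz, hsy]
          · rintro rfl
            exact hsy
        simp only [e1, e2, or_comm]
      refine ⟨mkP 2 s f, mkP_mem_wr 2 hs _, ?_, ?_, ?_⟩
      · rw [sq, mkP_mul, ← sq, hs2]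
        have : (fun z => f z + f (s z)) = fun _ => 0 := by
          funext z
          rw [hf, zmod_two_add_self]
        rw [this, mkP_one]
      · simp only [mkP_apply, hsy, f]
        simp only [true_or, if_true]
        congr 1
        rw [← add_assoc, zmod_two_add_self, zero_add]
      · simp only [mkP_apply, hsy', f]
        simp only [or_true, if_true]
        congr 1
        rw [add_comm c c', ← add_assoc, zmod_two_add_self, zero_add]
  · rintro _ ⟨t, ht, f, rfl⟩
    rw [mkP_eq_mul]
    refine mul_mem (Subgroup.subset_closure ⟨mkP_mem_wr 2 (one_mem _) _, mkP_two_sq_one _⟩) ?_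
    exact liftP_mem_closure h2 ht

end Step

/-- The models. -/
theorem exists_swap_model : ∀ j : ℕ, ∃ (X : Type) (_ : Fintype X) (_ : DecidableEq X),
    Fintype.card X = 2 ^ j ∧ ∃ T : Subgroup (Perm X),
      Nat.card T = 2 ^ padicValNat 2 (2 ^ j).factorial ∧ SwapGood T := by
  haveI : Fact (Nat.Prime 2) := ⟨Nat.prime_two⟩
  intro j
  induction j with
  | zero =>
    refine ⟨Unit, inferInstance, inferInstance, by simp, ⊥, by simp, ?_, bot_le⟩
    intro i k hik
    exact absurd (Subsingleton.elim i k) hik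
  | succ j ih =>
    obtain ⟨X, i1, i2, hX, T, hT, hg⟩ := ih
    refine ⟨X × ZMod 2, inferInstance, inferInstance, ?_, wr 2 T, ?_, wr_swapGood hg⟩
    · rw [Fintype.card_prod, hX, ZMod.card, pow_succ]
    · rw [card_wr, hT, hX, ← pow_add, pow_succ', padicValNat_factorial_mul, add_comm]

/-- Transport along a bijection. -/
theorem exists_swap_model_fin (n j : ℕ) (hn : n = 2 ^ j) : ∃ T : Subgroup (Perm (Fin n)),
    Nat.card T = 2 ^ padicValNat 2 n.factorial ∧ SwapGood T := by
  subst hn
  obtain ⟨X, i1, i2, hX, T, hT, h1, h2⟩ := exists_swap_model j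
  let e : X ≃ Fin (2 ^ j) := Fintype.equivFinOfCardEq hX
  let φ : Perm X ≃* Perm (Fin (2 ^ j)) := Equiv.permCongrHom e
  have hφ : ∀ (s : Perm X) (x : X), φ s (e x) = e (s x) := fun s x => by
    simp [φ, Equiv.permCongrHom, Equiv.permCongr_apply]
  refine ⟨T.map φ.toMonoidHom, ?_, ?_, ?_⟩
  · rw [← hT]
    exact (Nat.card_congr (Subgroup.equivMapOfInjective T φ.toMonoidHom φ.injective).toEquiv).symm
  · intro i k hik
    obtain ⟨x, rfl⟩ := e.surjective i
    obtain ⟨y, rfl⟩ := e.surjective k
    obtain ⟨s, hs, hs2, h3, h4⟩ := h1 x y (fun h => hik (by rw [h]))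
    refine ⟨φ s, ⟨s, hs, rfl⟩, ?_, ?_, ?_⟩
    · rw [← map_pow, hs2, map_one]
    · rw [hφ, h3]
    · rw [hφ, h4]
  · have h5 : (Subgroup.closure {s | s ∈ T ∧ s ^ 2 = 1}).map φ.toMonoidHom ≤
        Subgroup.closure {s | s ∈ T.map φ.toMonoidHom ∧ s ^ 2 = 1} := by
      rw [MonoidHom.map_closure]
      refine Subgroup.closure_mono ?_
      rintro _ ⟨x, hx, rfl⟩
      refine ⟨⟨x, hx.1, rfl⟩, ?_⟩
      change φ x ^ 2 = 1
      rw [← map_pow, hx.2, map_one]
    exact (Subgroup.map_mono h2).trans h5

end Cfsg.Agent.Lib.AltChar
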