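import Mathlib
import Cfsg.Agent.Lib.AltChar.SLEven3
import Cfsg.Agent.Lib.AltChar.SwapModel

/-!
# Sylow `2`-subgroups of `SL_{2^j}(q)`, `q ≡ 1 mod 4`.
-/

set_option autoImplicit false
set_option linter.unusedSectionVars false

open Equiv Matrix
open scoped MatrixGroups

namespace Cfsg.Agent.Lib.AltChar

section Mono

variable {F : Type*} [Field F] {n : ℕ}

/-- The element with `c` at `i` and `c⁻¹` at `k`. -/
def yv (i k : Fin n) (c : Fˣ) : Fin n → Fˣ := Pi.mulSingle i c * Pi.mulSingle k c⁻¹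

theorem prod_mulSingle' (i : Fin n) (c : Fˣ) : ∏ j, (Pi.mulSingle i c : Fin n → Fˣ) j = c := by
  rw [Finset.prod_eq_single i]
  · simp
  · intro b _ hb
    exact Pi.mulSingle_eq_of_ne hb _
  · simp

theorem prod_yv (i k : Fin n) (c : Fˣ) : ∏ j, yv i k c j = 1 := by
  simp only [yv, Pi.mul_apply, Finset.prod_mul_distrib, prod_mulSingle']
  simp

theorem yv_apply_left {i k : Fin n} (h : i ≠ k) (c : Fˣ) : yv i k c i = c := by
  simp [yv, Pi.mulSingle_eq_of_ne h]

theorem yv_apply_right {i k : Fin n} (h : i ≠ k) (c : Fˣ) : yv i k c k = c⁻¹ := by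
  simp [yv, Pi.mulSingle_eq_of_ne h.symm]

theorem yv_apply_other {i k j : Fin n} (h1 : j ≠ i) (h2 : j ≠ k) (c : Fˣ) : yv i k c j = 1 := by
  simp [yv, Pi.mulSingle_eq_of_ne h1, Pi.mulSingle_eq_of_ne h2]

/-- Squares lie in the commutator subgroup of `(C ≀ T) ∩ SL`. -/
theorem exp_mono_M0 (C : Subgroup Fˣ) (hneg : (-1 : Fˣ) ∈ C) {ε : Fˣ} (hε : ε ∈ C) (hε2 : ε ^ 2 = -1)
    (T : Subgroup (Perm (Fin n))) (hT : SwapGood T) (i₀ : Fin n) :
    ∀ g ∈ (wrSub monoWrData C T) ⊓ (GeneralLinearGroup.det : GL (Fin n) F →* Fˣ).ker,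
      g ^ 2 ∈ ⁅(wrSub monoWrData C T) ⊓ (GeneralLinearGroup.det : GL (Fin n) F →* Fˣ).ker,
        (wrSub monoWrData C T) ⊓ (GeneralLinearGroup.det : GL (Fin n) F →* Fˣ).ker⁆ := by
  classical
  set M := wrSub (monoWrData (F := F) (n := n)) C T with hM
  set M₀ := M ⊓ (GeneralLinearGroup.det : GL (Fin n) F →* Fˣ).ker with hM₀
  set K := ⁅M₀, M₀⁆ with hK
  obtain ⟨hT1, hT2⟩ := hT
  let Good : GL (Fin n) F → Prop := fun g => g ^ 2 ∈ K ∧ g ∈ M₀
  have good_mul : ∀ g h, Good g → Good h → Good (g * h) := fun g h hg hh =>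
    ⟨mul_pow_mem_commutator M₀ 2 hg.2 hh.2 hg.1 hh.1, mul_mem hg.2 hh.2⟩
  have good_inv : ∀ g, Good g → Good g⁻¹ := fun g hg =>
    ⟨by rw [inv_pow]; exact inv_mem hg.1, inv_mem hg.2⟩
  have hconj := (monoWrData (F := F) (n := n)).conj
  have hcomm : ∀ x y : Fin n → Fˣ, monoD (F := F) x * monoD y = monoD y * monoD x := fun x y => by
    rw [← map_mul, ← map_mul, mul_comm]
  have hmemM₀ : ∀ (x : Fin n → Fˣ), (∀ i, x i ∈ C) → ∏ j, x j = 1 → monoD x ∈ M₀ := by
    intro x hx hp
    refine Subgroup.mem_inf.mpr ⟨D_mem_wrSub monoWrData hx, ?_⟩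
    rw [MonoidHom.mem_ker, det_monoD, hp]
  have hyvmem : ∀ (i k : Fin n) (c : Fˣ), c ∈ C → ∀ j, yv i k c j ∈ C := by
    intro i k c hc j
    refine mul_mem ?_ ?_
    · by_cases h : j = i
      · subst h
        simpa using hc
      · simp [Pi.mulSingle_eq_of_ne h, one_mem]
    · by_cases h : j = k
      · subst h
        simpa using inv_mem hc
      · simp [Pi.mulSingle_eq_of_ne h, one_mem]
  -- lifts
  have hlift : ∀ s ∈ T, ∃ u : Fin n → Fˣ, (∀ i, u i ∈ C) ∧ monoD u * pmGL s ∈ M₀ ∧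
      (u = 1 ∨ ∃ i₁, s i₁ ≠ i₁ ∧ u = Pi.mulSingle i₁ (-1)) := by
    intro s hs
    rcases Int.units_eq_one_or (Perm.sign s) with hsg | hsg
    · refine ⟨1, fun _ => one_mem _, ?_, Or.inl rfl⟩
      refine Subgroup.mem_inf.mpr ⟨⟨1, fun _ => one_mem _, s, hs, rfl⟩, ?_⟩
      rw [MonoidHom.mem_ker, map_one, one_mul]
      apply Units.ext
      rw [det_pmGL, hsg]
      simp
    · have hne : s ≠ 1 := by
        rintro rfl
        rw [map_one] at hsg
        exact absurd hsg (by decide)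
      obtain ⟨i₁, hi₁⟩ : ∃ i₁, s i₁ ≠ i₁ := by
        by_contra hc
        push Not at hc
        exact hne (Equiv.ext hc)
      have hu : ∀ i, (Pi.mulSingle i₁ (-1) : Fin n → Fˣ) i ∈ C := by
        intro i
        by_cases h : i = i₁
        · subst h
          simpa using hneg
        · simp [Pi.mulSingle_eq_of_ne h, one_mem]
      refine ⟨Pi.mulSingle i₁ (-1), hu, ?_, Or.inr ⟨i₁, hi₁, rfl⟩⟩
      refine Subgroup.mem_inf.mpr ⟨⟨_, hu, s, hs, rfl⟩, ?_⟩
      rw [MonoidHom.mem_ker, map_mul, det_monoD, prod_mulSingle']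
      apply Units.ext
      rw [Units.val_mul, det_pmGL, hsg]
      simp
  -- squares of the `yv`
  have hY : ∀ (i k : Fin n) (c : Fˣ), i ≠ k → c ∈ C → (monoD (yv i k c)) ^ 2 ∈ K := by
    intro i k c hik hc
    obtain ⟨s, hs, hs2, hsi, hsk⟩ := hT1 i k hik
    obtain ⟨u, hu, hst, -⟩ := hlift s hs
    have hsinv : ∀ j, s⁻¹ j = s j := by
      intro j
      rw [Perm.inv_eq_iff_eq, ← Perm.mul_apply, ← sq, hs2, Perm.one_apply]
    have hpt : (fun j => yv i k c (s⁻¹ j)) = (yv i k c)⁻¹ := by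
      funext j
      rw [hsinv, Pi.inv_apply]
      by_cases h1 : j = i
      · subst h1
        rw [hsi, yv_apply_right hik, yv_apply_left hik]
      · by_cases h2 : j = k
        · subst h2
          rw [hsk, yv_apply_left hik, yv_apply_right hik, inv_inv]
        · have hss' : s (s j) = j := by
            rw [← Perm.mul_apply, ← sq, hs2, Perm.one_apply]
          have h3 : s j ≠ i := fun hc' => h2 (by
            rw [hc', hsi] at hss'
            exact hss'.symm)
          have h4 : s j ≠ k := fun hc' => h1 (by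
            rw [hc', hsk] at hss'
            exact hss'.symm)
          rw [yv_apply_other h3 h4, yv_apply_other h1 h2, inv_one]
    set Y := monoD (F := F) (yv i k c) with hYdef
    set st := monoD (F := F) u * pmGL s with hst'
    have e1 : st * Y = Y⁻¹ * st := by
      rw [hst', mul_assoc, hYdef, hconj, hpt, map_inv, ← mul_assoc, ← map_inv, hcomm, mul_assoc]
    have hYmem : Y ∈ M₀ := hmemM₀ _ (hyvmem i k c hc) (prod_yv i k c)
    have e2 : Y * st * Y⁻¹ * st⁻¹ = Y ^ 2 := by
      have e3 : st * Y⁻¹ * st⁻¹ = Y := by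
        have : st * Y * st⁻¹ = Y⁻¹ := by
          rw [e1, mul_inv_cancel_right]
        calc st * Y⁻¹ * st⁻¹ = (st * Y * st⁻¹)⁻¹ := by group
          _ = Y := by rw [this, inv_inv]
      calc Y * st * Y⁻¹ * st⁻¹ = Y * (st * Y⁻¹ * st⁻¹) := by group
        _ = Y ^ 2 := by rw [e3, sq]
    rw [← e2]
    exact Subgroup.commutator_mem_commutator hYmem hst
  -- lifts are good
  have hliftGood : ∀ s ∈ T, s ^ 2 = 1 → ∃ u : Fin n → Fˣ, (∀ i, u i ∈ C) ∧ Good (monoD u * pmGL s) := by
    intro s hs hs2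
    obtain ⟨u, hu, hst, hcase⟩ := hlift s hs
    refine ⟨u, hu, ?_, hst⟩
    have hss : s * s = 1 := by rw [← sq, hs2]
    have e : (monoD (F := F) u * pmGL s) ^ 2 = monoD (u * fun j => u (s⁻¹ j)) := by
      rw [sq, mul_assoc, ← mul_assoc (pmGL s), hconj, mul_assoc, ← map_mul, hss, map_one, mul_one,
        map_mul]
    rw [e]
    rcases hcase with rfl | ⟨i₁, hi₁, rfl⟩
    · have : ((1 : Fin n → Fˣ) * fun j => (1 : Fin n → Fˣ) (s⁻¹ j)) = 1 := by
        funext j
        simp
      rw [this, map_one]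
      exact one_mem _
    · have hsinv : ∀ j, s⁻¹ j = i₁ ↔ j = s i₁ := fun j => Perm.inv_eq_iff_eq
      have : ((Pi.mulSingle i₁ (-1) : Fin n → Fˣ) * fun j => (Pi.mulSingle i₁ (-1) : Fin n → Fˣ) (s⁻¹ j)) =
          (yv i₁ (s i₁) ε) ^ 2 := by
        funext j
        simp only [Pi.mul_apply, Pi.pow_apply]
        by_cases h1 : j = i₁
        · subst h1
          have h3 : s⁻¹ j ≠ j := fun hc => hi₁ (by
            have := (hsinv j).mp hc
            exact this.symm)
          rw [yv_apply_left hi₁.symm, hε2, Pi.mulSingle_eq_same, Pi.mulSingle_eq_of_ne h3, mul_one]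
        · by_cases h2 : j = s i₁
          · subst h2
            have h3 : s⁻¹ (s i₁) = i₁ := by simp
            rw [h3, yv_apply_right hi₁.symm, Pi.mulSingle_eq_same, Pi.mulSingle_eq_of_ne h1, one_mul,
              inv_pow, hε2]
            simp
          · have h3 : s⁻¹ j ≠ i₁ := fun hc => h2 ((hsinv j).mp hc)
            rw [yv_apply_other h1 h2, Pi.mulSingle_eq_of_ne h1, Pi.mulSingle_eq_of_ne h3]
            simp
      rw [this, map_pow]
      exact hY i₁ (s i₁) ε hi₁.symm hε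
  -- the base
  have hbase' : ∀ (S : Finset (Fin n)) (x : Fin n → Fˣ), (∀ i, x i ∈ C) →
      (∀ i, i ∉ S → i ≠ i₀ → x i = 1) → ∏ j, x j = 1 → Good (monoD x) := by
    intro S
    induction S using Finset.induction_on with
    | empty =>
      intro x _ hx1 hp
      have hall : ∀ j, x j = 1 ∨ j = i₀ := fun j => by
        by_cases h : j = i₀
        · exact Or.inr h
        · exact Or.inl (hx1 j (by simp) h)
      have hx0 : x i₀ = 1 := by
        rw [Finset.prod_eq_single i₀] at hp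
        · exact hp
        · intro b _ hb
          exact (hall b).resolve_right hb
        · simp
      have : x = 1 := by
        funext j
        rcases hall j with h | rfl
        · exact h
        · exact hx0
      rw [this, map_one]
      exact ⟨by simp [one_mem], one_mem _⟩
    | insert j S hj ih =>
      intro x hx hx1 hp
      by_cases hj0 : j = i₀
      · refine ih x hx (fun i hi hi0 => hx1 i (by simp [hi, Ne.symm hi0, ← hj0]; exact fun h => hi0 (h ▸ hj0)) hi0) hp
      · set x' := (yv j i₀ (x j))⁻¹ * x with hx'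
        have hdec : x = yv j i₀ (x j) * x' := by rw [hx']; group
        have h1 : Good (monoD x') := by
          refine ih x' (fun i => mul_mem (inv_mem (hyvmem j i₀ _ (hx j) i)) (hx i)) ?_ ?_
          · intro i hi hi0
            by_cases hij : i = j
            · subst hij
              simp only [hx', Pi.mul_apply, Pi.inv_apply]
              rw [yv_apply_left hj0]
              simp
            · have h3 := hx1 i (by simp [hij, hi]) hi0
              simp only [hx', Pi.mul_apply, Pi.inv_apply]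
              rw [h3, yv_apply_other hij hi0]
              simp
          · simp only [hx', Pi.mul_apply, Pi.inv_apply, Finset.prod_mul_distrib, Finset.prod_inv_distrib,
              prod_yv, hp]
            simp
        have h2 : Good (monoD (yv j i₀ (x j))) :=
          ⟨hY j i₀ _ hj0 (hx j), hmemM₀ _ (hyvmem j i₀ _ (hx j)) (prod_yv j i₀ _)⟩
        rw [hdec, map_mul]
        exact good_mul _ _ h2 h1
  have hbase : ∀ x : Fin n → Fˣ, (∀ i, x i ∈ C) → ∏ j, x j = 1 → Good (monoD x) :=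
    fun x hx hp => hbase' Finset.univ x hx (fun i hi => absurd (Finset.mem_univ i) hi) hp
  -- closure
  have hclosure : ∀ σ ∈ Subgroup.closure {s | s ∈ T ∧ s ^ 2 = 1},
      ∃ x : Fin n → Fˣ, (∀ i, x i ∈ C) ∧ Good (monoD x * pmGL σ) := by
    intro σ hσ
    induction hσ using Subgroup.closure_induction with
    | mem s hs => exact hliftGood s hs.1 hs.2
    | one =>
      refine ⟨1, fun _ => one_mem _, ?_⟩
      simp only [map_one, mul_one]
      exact ⟨by simp [one_mem], one_mem _⟩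
    | mul a b _ _ ha hb =>
      obtain ⟨x, hx, hxg⟩ := ha
      obtain ⟨y, hy, hyg⟩ := hb
      refine ⟨x * fun i => y (a⁻¹ i), fun i => mul_mem (hx i) (hy _), ?_⟩
      have e : monoD (F := F) (x * fun i => y (a⁻¹ i)) * pmGL (a * b) =
          (monoD x * pmGL a) * (monoD y * pmGL b) := by
        rw [map_mul, map_mul, mul_assoc, mul_assoc, ← mul_assoc (pmGL a), hconj, mul_assoc]
      rw [e]
      exact good_mul _ _ hxg hyg
    | inv a _ ha =>
      obtain ⟨x, hx, hxg⟩ := ha
      refine ⟨fun i => (x (a i))⁻¹, fun i => inv_mem (hx _), ?_⟩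
      have e : monoD (F := F) (fun i => (x (a i))⁻¹) * pmGL a⁻¹ = (monoD x * pmGL a)⁻¹ := by
        have h1 := hconj a⁻¹ x⁻¹
        simp only [inv_inv, Pi.inv_apply] at h1
        rw [← h1, _root_.mul_inv_rev, ← map_inv, ← map_inv]
      rw [e]
      exact good_inv _ hxg
  -- the conclusion
  intro g hg
  obtain ⟨⟨x, hx, σ, hσ, rfl⟩, hgd⟩ := Subgroup.mem_inf.mp hg
  obtain ⟨y, hy, hyg⟩ := hclosure σ (hT2 hσ)
  have e : monoD (F := F) x * pmGL σ = monoD (x * y⁻¹) * (monoD y * pmGL σ) := by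
    rw [map_mul, map_inv]
    group
  have hd : ∏ j, (x * y⁻¹) j = 1 := by
    have h1 : monoD (F := F) (x * y⁻¹) ∈ M₀ := by
      have : monoD (F := F) (x * y⁻¹) = (monoD x * pmGL σ) * (monoD y * pmGL σ)⁻¹ := by
        rw [map_mul, map_inv]
        group
      rw [this]
      exact mul_mem hg (inv_mem hyg.2)
    have h2 := (Subgroup.mem_inf.mp h1).2
    rwa [MonoidHom.mem_ker, det_monoD] at h2
  have h3 := hbase (x * y⁻¹) (fun i => mul_mem (hx i) (inv_mem (hy i))) hd
  rw [e]
  exact (good_mul _ _ h3 hyg).1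

/-- The order of `(C ≀ T) ∩ SL`. -/
theorem card_mono_M0 (C : Subgroup Fˣ) (hneg : (-1 : Fˣ) ∈ C) (T : Subgroup (Perm (Fin n)))
    (i₀ : Fin n) :
    Nat.card (wrSub (monoWrData (F := F) (n := n)) C T) = Nat.card C *
      Nat.card ↥((wrSub (monoWrData (F := F) (n := n)) C T) ⊓
        (GeneralLinearGroup.det : GL (Fin n) F →* Fˣ).ker) := by
  classical
  set M := wrSub (monoWrData (F := F) (n := n)) C T with hM
  set M₀ := M ⊓ (GeneralLinearGroup.det : GL (Fin n) F →* Fˣ).ker with hM₀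
  have hsingle : ∀ c ∈ C, monoD (Pi.mulSingle i₀ c : Fin n → Fˣ) ∈ M := by
    intro c hc
    refine D_mem_wrSub monoWrData fun i => ?_
    by_cases h : i = i₀
    · subst h
      simpa using hc
    · simp [Pi.mulSingle_eq_of_ne h, one_mem]
  have hdetS : ∀ c : Fˣ, GeneralLinearGroup.det (monoD (Pi.mulSingle i₀ c : Fin n → Fˣ)) = c := by
    intro c
    rw [det_monoD, prod_mulSingle']
  have hdetM : ∀ x ∈ M, GeneralLinearGroup.det x ∈ C := by
    rintro _ ⟨x, hx, σ, hσ, rfl⟩
    rw [map_mul, det_monoD]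
    refine mul_mem (prod_mem fun i _ => hx i) ?_
    rcases Int.units_eq_one_or (Perm.sign σ) with hsg | hsg
    · have : GeneralLinearGroup.det (pmGL (F := F) σ) = 1 := by
        apply Units.ext
        rw [det_pmGL, hsg]
        simp
      rw [this]
      exact one_mem _
    · have : GeneralLinearGroup.det (pmGL (F := F) σ) = -1 := by
        apply Units.ext
        rw [det_pmGL, hsg]
        simp
      rw [this]
      exact hneg
  let Φ : C × M₀ → M := fun p =>
    ⟨monoD (Pi.mulSingle i₀ (p.1 : Fˣ)) * p.2, mul_mem (hsingle _ p.1.2) (Subgroup.mem_inf.mp p.2.2).1⟩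
  have hΦ : Function.Bijective Φ := by
    constructor
    · rintro ⟨c, g⟩ ⟨c', g'⟩ h
      have h1 : monoD (Pi.mulSingle i₀ (c : Fˣ)) * (g : GL (Fin n) F) =
          monoD (Pi.mulSingle i₀ (c' : Fˣ)) * (g' : GL (Fin n) F) := congrArg (fun z : M => (z : GL (Fin n) F)) h
      have h2 := congrArg GeneralLinearGroup.det h1
      rw [map_mul, map_mul, hdetS, hdetS, MonoidHom.mem_ker.mp (Subgroup.mem_inf.mp g.2).2,
        MonoidHom.mem_ker.mp (Subgroup.mem_inf.mp g'.2).2, mul_one, mul_one] at h2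
      have hc : c = c' := Subtype.ext h2
      subst hc
      have hg : (g : GL (Fin n) F) = g' := mul_left_cancel h1
      have : g = g' := Subtype.ext hg
      rw [this]
    · rintro ⟨x, hx⟩
      let c : C := ⟨GeneralLinearGroup.det x, hdetM x hx⟩
      refine ⟨(c, ⟨(monoD (Pi.mulSingle i₀ (c : Fˣ)))⁻¹ * x, Subgroup.mem_inf.mpr
        ⟨mul_mem (inv_mem (hsingle _ c.2)) hx, ?_⟩⟩), ?_⟩
      · rw [MonoidHom.mem_ker, map_mul, map_inv, hdetS]
        simp [c]
      · apply Subtype.ext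
        simp [Φ]
  rw [← Nat.card_congr (Equiv.ofBijective Φ hΦ), Nat.card_prod]

/-- Sylow `2`-subgroups of `SL_{2^j}(q)`, `q ≡ 1 mod 4`. -/
theorem sl_pow_two_one [Fintype F] (hq : 4 ∣ Fintype.card F - 1) (j : ℕ) (hn : n = 2 ^ j)
    (P : Sylow 2 (SpecialLinearGroup (Fin n) F)) :
    ∀ x : (P : Subgroup (SpecialLinearGroup (Fin n) F)),
      x ^ 2 ∈ commutator (P : Subgroup (SpecialLinearGroup (Fin n) F)) := by
  classical
  haveI : Fact (Nat.Prime 2) := ⟨Nat.prime_two⟩
  have hq2 : 2 ≤ Fintype.card F := Fintype.one_lt_card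
  have hF : Odd (Fintype.card F) := odd_of_one hq2 hq
  have hn1 : 1 ≤ n := by
    rw [hn]
    exact Nat.one_le_two_pow
  let i₀ : Fin n := ⟨0, hn1⟩
  obtain ⟨C⟩ : Nonempty (Sylow 2 Fˣ) := inferInstance
  have hCcard : Nat.card (C : Subgroup Fˣ) = 2 ^ padicValNat 2 (Fintype.card F - 1) := by
    rw [Sylow.card_eq_multiplicity C, Nat.factorization_def _ Nat.prime_two, Nat.card_eq_fintype_card,
      Fintype.card_units]
  have hCsingle : Subsingleton (Sylow 2 Fˣ) := by
    letI := Sylow.unique_of_normal C (Subgroup.normal_of_comm _)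
    infer_instance
  have hneg : (-1 : Fˣ) ∈ (C : Subgroup Fˣ) := by
    have hp : IsPGroup 2 (Subgroup.zpowers (-1 : Fˣ)) := by
      rintro ⟨_, k, rfl⟩
      refine ⟨1, Subtype.ext ?_⟩
      change ((-1 : Fˣ) ^ k) ^ 2 ^ 1 = 1
      rw [pow_one, ← zpow_natCast, ← _root_.zpow_mul, mul_comm, _root_.zpow_mul, zpow_natCast]
      simp
    obtain ⟨S, hS⟩ := hp.exists_le_sylow
    rw [Subsingleton.elim C S]
    exact hS (Subgroup.mem_zpowers _)
  have hC4 : 4 ∣ Nat.card (C : Subgroup Fˣ) := by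
    rw [hCcard]
    have h1 : 2 ≤ padicValNat 2 (Fintype.card F - 1) := by
      obtain ⟨c, hc⟩ := hq
      have hc0 : c ≠ 0 := by
        rintro rfl
        obtain ⟨d, hd⟩ := hF
        omega
      rw [hc, show (4 : ℕ) = 2 ^ 2 by norm_num, padicValNat.mul (by norm_num) hc0,
        padicValNat.prime_pow]
      omega
    have h2 : (2 : ℕ) ^ 2 ∣ 2 ^ padicValNat 2 (Fintype.card F - 1) := pow_dvd_pow 2 h1
    simpa using h2
  obtain ⟨ε, hε, hε2⟩ : ∃ ε ∈ (C : Subgroup Fˣ), ε ^ 2 = -1 := by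
    haveI hcyc : IsCyclic (C : Subgroup Fˣ) := inferInstance
    obtain ⟨g, hg⟩ := hcyc.exists_generator
    obtain ⟨k, hk⟩ := Subgroup.mem_zpowers_iff.mp (hg ⟨-1, hneg⟩)
    have h1 : g ^ (2 * k) = 1 := by
      rw [mul_comm, _root_.zpow_mul, hk]
      apply Subtype.ext
      simp
    have h2 : (Nat.card (C : Subgroup Fˣ) : ℤ) ∣ 2 * k := by
      rw [← orderOf_eq_card_of_forall_mem_zpowers hg]
      exact orderOf_dvd_iff_zpow_eq_one.mpr h1
    have h3 : (2 : ℤ) ∣ k := by
      have h4' : (4 : ℤ) ∣ 2 * k := dvd_trans (by exact_mod_cast hC4) h2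
      omega
    obtain ⟨l, rfl⟩ := h3
    refine ⟨(g ^ l : (C : Subgroup Fˣ)), (g ^ l).2, ?_⟩
    have : (g ^ l) ^ 2 = ⟨-1, hneg⟩ := by
      rw [← hk, ← zpow_natCast, ← _root_.zpow_mul, mul_comm]
      rfl
    exact congrArg Subtype.val this
  obtain ⟨T, hT, hgood⟩ := exists_swap_model_fin n j hn
  set M₀ := (wrSub (monoWrData (F := F) (n := n)) (C : Subgroup Fˣ) T) ⊓
    (GeneralLinearGroup.det : GL (Fin n) F →* Fˣ).ker with hM₀
  let M₀' : Subgroup (SpecialLinearGroup (Fin n) F) := M₀.comap SpecialLinearGroup.toGL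
  have hmap : M₀'.map SpecialLinearGroup.toGL = M₀ := by
    ext a
    rw [mem_map_comap_toGL, Subgroup.mem_inf]
    constructor
    · rintro ⟨h3, -⟩
      exact h3
    · intro h3
      exact ⟨h3, h3.2⟩
  have hE' : ∀ g ∈ M₀', g ^ 2 ∈ ⁅M₀', M₀'⁆ := by
    refine exp_comap_toGL M₀ ?_
    change ∀ g ∈ M₀'.map SpecialLinearGroup.toGL, g ^ 2 ∈ ⁅M₀'.map SpecialLinearGroup.toGL,
      M₀'.map SpecialLinearGroup.toGL⁆
    rw [hmap]
    exact exp_mono_M0 (C : Subgroup Fˣ) hneg hε hε2 T hgood i₀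
  refine sylow_exp_of_sub 2 M₀' ?_ hE' P
  have hcard2 : Nat.card M₀' = Nat.card M₀ := by
    rw [← hmap]
    exact Nat.card_congr (Subgroup.equivMapOfInjective M₀' _ SpecialLinearGroup.toGL_injective).toEquiv
  have hcard3 := card_mono_M0 (F := F) (C : Subgroup Fˣ) hneg T i₀
  rw [card_wrSub, hCcard, hT, ← pow_mul, ← pow_add] at hcard3
  rw [hcard2, Nat.factorization_def _ Nat.prime_two]
  have h1 := val_card_SL hF n hn1
  have h4 := fVal_of_one hq2 hq n
  have e3 := mul_comm (padicValNat 2 (Fintype.card F - 1)) n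
  have e4 : padicValNat 2 (Fintype.card F - 1) * n + padicValNat 2 n.factorial =
      padicValNat 2 (Fintype.card F - 1) + padicValNat 2 (Nat.card (SpecialLinearGroup (Fin n) F)) := by
    omega
  rw [e4, pow_add] at hcard3
  exact (Nat.eq_of_mul_eq_mul_left (by positivity) hcard3).symm

end Mono

end Cfsg.Agent.Lib.AltChar
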